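import Mathlib

/-!
A subgroup whose index is the degree of a doubly transitive group has at most two orbits
(an incidence matrix argument).
-/

set_option autoImplicit false

namespace CfsgLib.Perm57

open MulAction Matrix

variable {G Ω : Type*} [Group G] [MulAction G Ω]

open scoped Classical in
/-- Incidence matrix of the translates of `O` indexed by left cosets of `H`. -/
noncomputable def cosetIncidence (H : Subgroup G) (O : Set Ω) : Matrix Ω (G ⧸ H) ℚ :=
  Matrix.of fun x B => if (Quotient.out B)⁻¹ • x ∈ O then 1 else 0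

variable {H : Subgroup G} {O O' : Set Ω}

open scoped Classical in
theorem cosetIncidence_mk (hO : ∀ h ∈ H, ∀ x ∈ O, h • x ∈ O) (x : Ω) (g : G) :
    cosetIncidence H O x (g : G ⧸ H) = if g⁻¹ • x ∈ O then 1 else 0 := by
  obtain ⟨h, hh⟩ := QuotientGroup.mk_out_eq_mul H g
  simp only [cosetIncidence, Matrix.of_apply, hh]
  have : (g * (h : G))⁻¹ • x ∈ O ↔ g⁻¹ • x ∈ O := by
    rw [_root_.mul_inv_rev, mul_smul]
    refine ⟨fun hx => ?_, fun hx => hO _ (H.inv_mem h.2) _ hx⟩
    have := hO _ h.2 _ hx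
    rwa [smul_inv_smul] at this
  simp only [this]

theorem cosetIncidence_smul (hO : ∀ h ∈ H, ∀ x ∈ O, h • x ∈ O) (g : G) (x : Ω) (B : G ⧸ H) :
    cosetIncidence H O (g • x) (g • B) = cosetIncidence H O x B := by
  classical
  obtain ⟨k, rfl⟩ := QuotientGroup.mk_surjective B
  rw [MulAction.Quotient.smul_coe, cosetIncidence_mk hO, cosetIncidence_mk hO, smul_eq_mul,
    _root_.mul_inv_rev, mul_smul, inv_smul_smul]

theorem cosetIncidence_nonneg (x : Ω) (B : G ⧸ H) : 0 ≤ cosetIncidence H O x B := by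
  classical
  simp only [cosetIncidence, Matrix.of_apply]
  split <;> norm_num

theorem cosetIncidence_le_one (x : Ω) (B : G ⧸ H) : cosetIncidence H O x B ≤ 1 := by
  classical
  simp only [cosetIncidence, Matrix.of_apply]
  split <;> norm_num

variable [Finite G]

/-- The number of cosets whose translates of `O`, `O'` contain `x`, `y` respectively. -/
noncomputable def pairCount (H : Subgroup G) (O O' : Set Ω) (x y : Ω) : ℚ :=
  letI := Fintype.ofFinite (G ⧸ H)
  ∑ B : G ⧸ H, cosetIncidence H O x B * cosetIncidence H O' y B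

theorem pairCount_smul (hO : ∀ h ∈ H, ∀ x ∈ O, h • x ∈ O) (hO' : ∀ h ∈ H, ∀ x ∈ O', h • x ∈ O')
    (g : G) (x y : Ω) : pairCount H O O' (g • x) (g • y) = pairCount H O O' x y := by
  unfold pairCount
  letI := Fintype.ofFinite (G ⧸ H)
  refine (Fintype.sum_equiv (MulAction.toPerm g) _ _ fun B => ?_).symm
  simp only [MulAction.toPerm_apply, cosetIncidence_smul hO, cosetIncidence_smul hO']

theorem pairCount_pos (hO : ∀ h ∈ H, ∀ x ∈ O, h • x ∈ O) (hO' : ∀ h ∈ H, ∀ x ∈ O', h • x ∈ O')
    {o o' : Ω} (ho : o ∈ O) (ho' : o' ∈ O') : 0 < pairCount H O O' o o' := by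
  classical
  unfold pairCount
  letI := Fintype.ofFinite (G ⧸ H)
  refine Finset.sum_pos' (fun B _ => mul_nonneg (cosetIncidence_nonneg _ _)
    (cosetIncidence_nonneg _ _)) ⟨((1 : G) : G ⧸ H), Finset.mem_univ _, ?_⟩
  simp [cosetIncidence_mk hO, cosetIncidence_mk hO', ho, ho']

theorem pairCount_disjoint (hd : Disjoint O O') (x : Ω) : pairCount H O O' x x = 0 := by
  classical
  unfold pairCount
  letI := Fintype.ofFinite (G ⧸ H)
  refine Finset.sum_eq_zero fun B _ => ?_
  simp only [cosetIncidence, Matrix.of_apply]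
  split_ifs with h1 h2
  · exact absurd h2 (Set.disjoint_left.mp hd h1)
  all_goals simp

theorem orbit_count_le_two [Finite Ω] (h2 : IsMultiplyPretransitive G Ω 2)
    (hidx : H.index = Nat.card Ω) (O : Fin 3 → Set Ω)
    (hne : ∀ i, (O i).Nonempty) (hinv : ∀ i, ∀ h ∈ H, ∀ x ∈ O i, h • x ∈ O i)
    (hdisj : ∀ i j, i ≠ j → Disjoint (O i) (O j)) : False := by
  classical
  letI := Fintype.ofFinite Ω
  letI := Fintype.ofFinite (G ⧸ H)
  rw [is_two_pretransitive_iff] at h2
  obtain ⟨a, ha⟩ := hne 0
  obtain ⟨b, hb⟩ := hne 1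
  have hab : a ≠ b := fun h => Set.disjoint_left.mp (hdisj 0 1 (by decide)) ha (h ▸ hb)
  have htrans : ∀ x : Ω, ∃ g : G, g • a = x := by
    intro x
    rcases eq_or_ne x b with rfl | hx
    · obtain ⟨g, hg, -⟩ := h2 hab hab.symm
      exact ⟨g, hg⟩
    · obtain ⟨g, hg, -⟩ := h2 hab hx
      exact ⟨g, hg⟩
  have hconst : ∀ i j, ∀ x y : Ω, x ≠ y →
      pairCount H (O i) (O j) x y = pairCount H (O i) (O j) a b := by
    intro i j x y hxy
    obtain ⟨g, hgx, hgy⟩ := h2 hab hxy
    rw [← hgx, ← hgy, pairCount_smul (hinv i) (hinv j)]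
  have hdiag : ∀ i j, ∀ x : Ω, pairCount H (O i) (O j) x x = pairCount H (O i) (O j) a a := by
    intro i j x
    obtain ⟨g, rfl⟩ := htrans x
    exact pairCount_smul (hinv i) (hinv j) g a a
  have hpos : ∀ j, j ≠ 0 → 0 < pairCount H (O 0) (O j) a b := by
    intro j hj
    obtain ⟨c, hc⟩ := hne j
    have hac : a ≠ c := fun h => Set.disjoint_left.mp (hdisj 0 j hj.symm) ha (h ▸ hc)
    rw [← hconst 0 j a c hac]
    exact pairCount_pos (hinv 0) (hinv j) ha hc
  set α := pairCount H (O 0) (O 0) a a with hα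
  set β := pairCount H (O 0) (O 0) a b with hβ
  have hαβ : β < α := by
    by_contra hle
    push_neg at hle
    have heach : ∀ y : Ω, y ∈ O 0 := by
      intro y
      rcases eq_or_ne a y with rfl | hay
      · exact ha
      have h1 : pairCount H (O 0) (O 0) a y ≤ pairCount H (O 0) (O 0) a a := by
        unfold pairCount
        refine Finset.sum_le_sum fun B _ => ?_
        simp only [cosetIncidence, Matrix.of_apply]
        split_ifs <;> norm_num
      have heq : pairCount H (O 0) (O 0) a y = pairCount H (O 0) (O 0) a a :=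
        le_antisymm h1 (by rw [hconst 0 0 a y hay]; exact hle)
      by_contra hy
      have hlt : pairCount H (O 0) (O 0) a y < pairCount H (O 0) (O 0) a a := by
        unfold pairCount
        refine Finset.sum_lt_sum (fun B _ => ?_) ⟨((1 : G) : G ⧸ H), Finset.mem_univ _, ?_⟩
        · simp only [cosetIncidence, Matrix.of_apply]
          split_ifs <;> norm_num
        · simp [cosetIncidence_mk (hinv 0), ha, hy]
      exact hlt.ne heq
    exact Set.disjoint_left.mp (hdisj 0 1 (by decide)) (heach b) hb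
  have hβ0 : 0 ≤ β := Finset.sum_nonneg fun B _ =>
    mul_nonneg (cosetIncidence_nonneg _ _) (cosetIncidence_nonneg _ _)
  obtain ⟨e⟩ : Nonempty (Ω ≃ G ⧸ H) :=
    ⟨Fintype.equivOfCardEq (by rw [← Nat.card_eq_fintype_card, ← Nat.card_eq_fintype_card,
      ← hidx, Subgroup.index])⟩
  set M := fun i => (cosetIncidence H (O i)).submatrix id e with hM
  have hprod : ∀ i j, ∀ x y : Ω, (M i * (M j)ᵀ) x y = pairCount H (O i) (O j) x y := by
    intro i j x y
    simp only [hM, Matrix.mul_apply, Matrix.transpose_apply, Matrix.submatrix_apply, id_eq,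
      pairCount]
    exact Fintype.sum_equiv e _ _ fun z => rfl
  have hker : ∀ v : Ω → ℚ, (M 0 * (M 0)ᵀ).mulVec v = 0 → v = 0 := by
    intro v hv
    have hx : ∀ x, (α - β) * v x + β * ∑ y, v y = 0 := by
      intro x
      have := congrFun hv x
      simp only [Matrix.mulVec, dotProduct, hprod, Pi.zero_apply] at this
      rw [← this, Finset.mul_sum, ← Finset.add_sum_erase _ _ (Finset.mem_univ x),
        ← Finset.add_sum_erase _ _ (Finset.mem_univ x), hdiag, ← hα]
      have : ∑ y ∈ Finset.univ.erase x, pairCount H (O 0) (O 0) x y * v y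
          = ∑ y ∈ Finset.univ.erase x, β * v y :=
        Finset.sum_congr rfl fun y hy => by
          rw [hconst 0 0 x y (Finset.ne_of_mem_erase hy).symm]
      rw [this]; ring
    have hsum := congrArg (fun f : Ω → ℚ => ∑ x, f x) (funext hx)
    simp only [Finset.sum_add_distrib, ← Finset.mul_sum, Finset.sum_const, Finset.card_univ,
      Finset.sum_const_zero, nsmul_eq_mul] at hsum
    have hS : ∑ y, v y = 0 := by
      have hn : (0 : ℚ) ≤ Fintype.card Ω := Nat.cast_nonneg _
      have : ((α - β) + Fintype.card Ω * β) * ∑ y, v y = 0 := by linear_combination hsum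
      rcases mul_eq_zero.mp this with h | h
      · nlinarith
      · exact h
    funext x
    have := hx x
    rw [hS, mul_zero, add_zero] at this
    exact (mul_eq_zero.mp this).resolve_left (sub_ne_zero.mpr hαβ.ne')
  have hdet : IsUnit (M 0).det := by
    rw [isUnit_iff_ne_zero]
    intro h0
    obtain ⟨v, hv, hv'⟩ := Matrix.exists_mulVec_eq_zero_iff.mpr
      (show (M 0 * (M 0)ᵀ).det = 0 by rw [Matrix.det_mul, h0, zero_mul])
    exact hv (hker v hv')
  set β₁ := pairCount H (O 0) (O 1) a b with hβ₁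
  set β₂ := pairCount H (O 0) (O 2) a b with hβ₂
  have hD : M 0 * (β₂ • (M 1)ᵀ - β₁ • (M 2)ᵀ) = 0 := by
    ext x y
    rw [Matrix.mul_sub, Matrix.mul_smul, Matrix.mul_smul, Matrix.sub_apply, Matrix.smul_apply,
      Matrix.smul_apply, hprod, hprod, Matrix.zero_apply, smul_eq_mul, smul_eq_mul]
    rcases eq_or_ne x y with rfl | hxy
    · rw [pairCount_disjoint (hdisj 0 1 (by decide)), pairCount_disjoint (hdisj 0 2 (by decide))]
      ring
    · rw [hconst 0 1 x y hxy, hconst 0 2 x y hxy, ← hβ₁, ← hβ₂]; ring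
  have hD0 : β₂ • (M 1)ᵀ - β₁ • (M 2)ᵀ = 0 := by
    have := congrArg ((M 0)⁻¹ * ·) hD
    simpa [← Matrix.mul_assoc, Matrix.nonsing_inv_mul _ hdet] using this
  have h1 := congrFun (congrFun hD0 (e.symm ((1 : G) : G ⧸ H))) b
  simp [hM, cosetIncidence_mk (hinv 1), cosetIncidence_mk (hinv 2), hb,
    Set.disjoint_left.mp (hdisj 1 2 (by decide)) hb] at h1
  exact (hpos 2 (by decide)).ne' h1

theorem two_orbits [Finite Ω] (h2 : IsMultiplyPretransitive G Ω 2)
    (hidx : H.index = Nat.card Ω) (hnt : ¬ IsPretransitive H Ω) :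
    Nat.card (orbitRel.Quotient H Ω) = 2 := by
  classical
  letI : Fintype (orbitRel.Quotient H Ω) := Fintype.ofFinite _
  rw [Nat.card_eq_fintype_card]
  have hle : Fintype.card (orbitRel.Quotient H Ω) ≤ 2 := by
    by_contra h
    push_neg at h
    obtain ⟨p, q, r, hpq, hpr, hqr⟩ := Fintype.two_lt_card_iff.mp h
    refine orbit_count_le_two h2 hidx
      (fun i => {x : Ω | (Quotient.mk'' x : orbitRel.Quotient H Ω) = ![p, q, r] i}) ?_ ?_ ?_
    · intro i
      exact Quotient.exists_rep (![p, q, r] i)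
    · intro i h hh x hx
      simp only [Set.mem_setOf_eq] at hx ⊢
      rw [← hx]
      exact Quotient.sound' (MulAction.mem_orbit x (⟨h, hh⟩ : H))
    · intro i j hij
      rw [Set.disjoint_left]
      intro x hi hj
      simp only [Set.mem_setOf_eq] at hi hj
      rw [hi] at hj
      fin_cases i <;> fin_cases j <;> simp_all
  have hne : Nonempty Ω := by
    apply Finite.card_pos_iff.mp
    rw [← hidx]
    exact Nat.pos_of_ne_zero Subgroup.index_ne_zero_of_finite
  have hge : 1 < Fintype.card (orbitRel.Quotient H Ω) := by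
    by_contra h
    push_neg at h
    apply hnt
    rw [MulAction.pretransitive_iff_subsingleton_quotient]
    exact Fintype.card_le_one_iff_subsingleton.mp h
  omega

end CfsgLib.Perm57
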