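import Mathlib

/-!
A primitive group with a small Jordan set is triply transitive.
-/

set_option autoImplicit false

namespace CfsgLib.Perm57

open MulAction

open scoped Pointwise

variable (G : Type*) {Ω : Type*} [Group G] [MulAction G Ω]

/-- `D` is a Jordan set: the pointwise stabilizer of its complement is transitive on it. -/
def IsJordanSet (D : Set Ω) : Prop :=
  ∀ x ∈ D, ∀ y ∈ D, ∃ g : G, (∀ z ∉ D, g • z = z) ∧ g • x = y

variable {G}

theorem IsJordanSet.union {D E : Set Ω} (hD : IsJordanSet G D) (hE : IsJordanSet G E)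
    (hDE : (D ∩ E).Nonempty) : IsJordanSet G (D ∪ E) := by
  obtain ⟨w, hwD, hwE⟩ := hDE
  have key : ∀ x ∈ D ∪ E, ∃ g : G, (∀ z ∉ D ∪ E, g • z = z) ∧ g • x = w := by
    rintro x (hx | hx)
    · obtain ⟨g, hg, hgx⟩ := hD x hx w hwD
      exact ⟨g, fun z hz => hg z fun h => hz (Or.inl h), hgx⟩
    · obtain ⟨g, hg, hgx⟩ := hE x hx w hwE
      exact ⟨g, fun z hz => hg z fun h => hz (Or.inr h), hgx⟩
  intro x hx y hy
  obtain ⟨g, hg, hgx⟩ := key x hx
  obtain ⟨k, hk, hky⟩ := key y hy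
  refine ⟨k⁻¹ * g, fun z hz => ?_, ?_⟩
  · rw [mul_smul, hg z hz, inv_smul_eq_iff, hk z hz]
  · rw [mul_smul, hgx, inv_smul_eq_iff, hky]

theorem IsJordanSet.translate {D : Set Ω} (hD : IsJordanSet G D) (g : G) :
    IsJordanSet G (g • D) := by
  intro x hx y hy
  rw [Set.mem_smul_set_iff_inv_smul_mem] at hx hy
  obtain ⟨h, hh, hhx⟩ := hD _ hx _ hy
  refine ⟨g * h * g⁻¹, fun z hz => ?_, ?_⟩
  · rw [Set.mem_smul_set_iff_inv_smul_mem] at hz
    rw [mul_smul, mul_smul, hh _ hz, smul_inv_smul]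
  · rw [mul_smul, mul_smul, hhx, smul_inv_smul]

theorem jordan_three_transitive [Finite G] [Finite Ω] [IsPreprimitive G Ω] (Γ : Set Ω)
    (h1 : 1 < Γ.ncard) (h2 : 2 * Γ.ncard ≤ Nat.card Ω) (hJ : IsJordanSet G Γ) :
    IsMultiplyPretransitive G Ω 3 := by
  classical
  have := Fintype.ofFinite Ω
  have := Fintype.ofFinite G
  have hsum := Set.ncard_add_ncard_compl Γ
  have h2t : IsMultiplyPretransitive G Ω 2 := by
    refine IsPreprimitive.is_two_pretransitive (G := G) (s := Γᶜ) (n := Nat.card Ω - Γ.ncard - 1)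
      inferInstance (by omega) (by omega) ⟨fun x y => ?_⟩
    have hx : x.1 ∈ Γ := by
      have := (SubMulAction.mem_ofFixingSubgroup_iff G).mp x.2
      simpa using this
    have hy : y.1 ∈ Γ := by
      have := (SubMulAction.mem_ofFixingSubgroup_iff G).mp y.2
      simpa using this
    obtain ⟨g, hg, hgx⟩ := hJ _ hx _ hy
    exact ⟨⟨g, (mem_fixingSubgroup_iff G).mpr fun z hz => hg z hz⟩, Subtype.ext hgx⟩
  rw [is_two_pretransitive_iff] at h2t
  have hpair : ∀ c d : Ω, c ≠ d → ∃ g : G, c ∈ g • Γ ∧ d ∈ g • Γ := by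
    intro c d hcd
    obtain ⟨u, hu, v, hv, huv⟩ := (Set.one_lt_ncard (s := Γ)).mp h1
    obtain ⟨g, hgu, hgv⟩ := h2t huv hcd
    exact ⟨g, hgu ▸ Set.smul_mem_smul_set hu, hgv ▸ Set.smul_mem_smul_set hv⟩
  have havoid : ∀ a b c : Ω, c ≠ a → c ≠ b → ∃ g : G, c ∈ g • Γ ∧ a ∉ g • Γ ∧ b ∉ g • Γ := by
    intro a b c hca hcb
    by_contra hno
    push_neg at hno
    let lam : Ω → ℕ := fun x =>
      (Finset.univ.filter fun g : G => c ∈ g • Γ ∧ x ∈ g • Γ).card
    let r : ℕ := (Finset.univ.filter fun g : G => c ∈ g • Γ).card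
    have hle : r ≤ lam a + lam b := by
      refine le_trans (Finset.card_le_card ?_) (Finset.card_union_le _ _)
      intro g hg
      simp only [Finset.mem_filter, Finset.mem_univ, true_and, Finset.mem_union] at hg ⊢
      by_cases ha : a ∈ g • Γ
      · exact Or.inl ⟨hg, ha⟩
      · exact Or.inr ⟨hg, hno g hg ha⟩
    have hconst : ∀ x, x ≠ c → lam x = lam a := by
      intro x hx
      obtain ⟨k, hk1, hk2⟩ := h2t hca (Ne.symm hx)
      refine (Finset.card_equiv (Equiv.mulLeft k) fun g => ?_).symm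
      simp only [Finset.mem_filter, Finset.mem_univ, true_and, Equiv.coe_mulLeft, mul_smul]
      rw [← hk2]
      conv_rhs => arg 1; rw [← hk1]
      simp only [Set.smul_mem_smul_set_iff]
    have hlsum : ∑ x : Ω, lam x = r * Γ.ncard := by
      simp only [lam, r, Finset.card_filter]
      rw [Finset.sum_comm, Finset.sum_mul]
      refine Finset.sum_congr rfl fun g _ => ?_
      by_cases hc : c ∈ g • Γ
      · simp only [hc, true_and, if_true, one_mul]
        rw [← Finset.card_filter, ← Set.ncard_smul_set g Γ, ← Set.ncard_coe_finset]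
        congr 1
        ext; simp
      · simp [hc]
    have hlc : lam c = r := by simp [lam, r]
    have hsplit : r + (Nat.card Ω - 1) * lam a = r * Γ.ncard := by
      rw [← hlsum, ← Finset.add_sum_erase _ _ (Finset.mem_univ c), hlc,
        Finset.sum_congr rfl (fun x hx => hconst x (Finset.ne_of_mem_erase hx)),
        Finset.sum_const, Finset.card_erase_of_mem (Finset.mem_univ c), Finset.card_univ,
        smul_eq_mul, Nat.card_eq_fintype_card]
    have hlpos : 0 < lam a := by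
      obtain ⟨g, hgc, hga⟩ := hpair c a hca
      exact Finset.card_pos.mpr ⟨g, by simp [hgc, hga]⟩
    rw [hconst b (Ne.symm hcb)] at hle
    obtain ⟨k', hk'⟩ : ∃ k', Γ.ncard = k' + 1 := ⟨Γ.ncard - 1, by omega⟩
    rw [hk', Nat.mul_succ] at hsplit
    have h3 : (Nat.card Ω - 1) * lam a ≤ 2 * k' * lam a := by
      calc (Nat.card Ω - 1) * lam a = r * k' := by omega
        _ ≤ (lam a + lam a) * k' := Nat.mul_le_mul_right _ hle
        _ = 2 * k' * lam a := by ring
    have := Nat.le_of_mul_le_mul_right h3 hlpos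
    omega
  obtain ⟨Δ, ⟨hΔJ, hΔcard, hΔne⟩, hΔmax⟩ : ∃ Δ : Set Ω,
      (IsJordanSet G Δ ∧ Δ.ncard + 2 ≤ Nat.card Ω ∧ Δ.Nonempty) ∧
      ∀ E : Set Ω, (IsJordanSet G E ∧ E.ncard + 2 ≤ Nat.card Ω ∧ E.Nonempty) →
        E.ncard ≤ Δ.ncard := by
    obtain ⟨Δ, hΔ, hmax⟩ := Set.Finite.exists_maximalFor (fun E : Set Ω => E.ncard)
      {E : Set Ω | IsJordanSet G E ∧ E.ncard + 2 ≤ Nat.card Ω ∧ E.Nonempty} (Set.toFinite _)
      ⟨Γ, hJ, by omega, (Set.ncard_pos).mp (by omega)⟩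
    exact ⟨Δ, hΔ, fun E hE => (le_total E.ncard Δ.ncard).elim id (fun h => hmax hE h)⟩
  have hsumΔ := Set.ncard_add_ncard_compl Δ
  have hgrow : ∀ E : Set Ω, IsJordanSet G E → (Δ ∩ E).Nonempty → ¬ E ⊆ Δ →
      Nat.card Ω < (Δ ∪ E).ncard + 2 := by
    intro E hE hmeet hsub
    by_contra hle
    have hm := hΔmax (Δ ∪ E) ⟨hΔJ.union hE hmeet, by omega, hΔne.mono Set.subset_union_left⟩
    have hlt : Δ.ncard < (Δ ∪ E).ncard :=
      Set.ncard_lt_ncard ⟨Set.subset_union_left, fun h => hsub (Set.subset_union_right.trans h)⟩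
    omega
  have hC2 : Δᶜ.ncard = 2 := by
    by_contra hne
    obtain ⟨a, ha, b, hb, c, hc, hab, hac, hbc⟩ :=
      (Set.two_lt_ncard (s := Δᶜ)).mp (by omega)
    obtain ⟨g, hgc, hga, hgb⟩ := havoid a b c hac.symm hbc.symm
    have hsub : ¬ g • Γ ⊆ Δ := fun h => hc (h hgc)
    have hdisj : g • Γ ⊆ Δᶜ \ {a, b} := by
      intro z hz
      refine ⟨fun hzΔ => ?_, fun h => ?_⟩
      · have h3 := hgrow _ (hJ.translate g) ⟨z, hzΔ, hz⟩ hsub
        have h4 : (Δ ∪ g • Γ).ncard + ({a, b} : Set Ω).ncard ≤ Nat.card Ω := by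
          rw [← Set.ncard_univ Ω, ← Set.ncard_union_eq]
          · exact Set.ncard_le_ncard (Set.subset_univ _)
          · rw [Set.disjoint_left]
            rintro w (hw | hw) (rfl | rfl)
            exacts [ha hw, hb hw, hga hw, hgb hw]
        rw [Set.ncard_pair hab] at h4
        omega
      · rcases h with rfl | rfl
        exacts [hga hz, hgb hz]
    have hk : Γ.ncard + 2 ≤ Δᶜ.ncard := by
      have := Set.ncard_le_ncard hdisj
      rw [Set.ncard_smul_set, Set.ncard_sdiff (by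
        rintro w (rfl | rfl); exacts [ha, hb]), Set.ncard_pair hab] at this
      omega
    obtain ⟨d, hd⟩ := hΔne
    obtain ⟨e, hec, hed⟩ := hpair c d (fun h => hc (h ▸ hd))
    have h3 := hgrow _ (hJ.translate e) ⟨d, hd, hed⟩ (fun h => hc (h hec))
    have h4 : (Δ ∪ e • Γ).ncard ≤ Δ.ncard + (e • Γ).ncard - 1 := by
      have h5 := Set.ncard_union_add_ncard_inter Δ (e • Γ)
      have h6 : 0 < (Δ ∩ e • Γ).ncard := (Set.ncard_pos (s := Δ ∩ e • Γ)).mpr ⟨d, hd, hed⟩
      omega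
    rw [Set.ncard_smul_set] at h4
    omega
  obtain ⟨a, b, hab, hΔC⟩ := Set.ncard_eq_two.mp hC2
  have htr : ∀ c d : Ω, c ≠ a → c ≠ b → d ≠ a → d ≠ b →
      ∃ g : G, g • a = a ∧ g • b = b ∧ g • c = d := by
    intro c d hca hcb hda hdb
    have hmem : ∀ w, w ≠ a → w ≠ b → w ∈ Δ := fun w hwa hwb => by
      by_contra hw
      have : w ∈ ({a, b} : Set Ω) := hΔC ▸ hw
      rcases this with h | h
      exacts [hwa h, hwb h]
    obtain ⟨g, hg, hgc⟩ := hΔJ c (hmem c hca hcb) d (hmem d hda hdb)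
    have ha : a ∉ Δ := fun h => (hΔC.ge (Set.mem_insert a _)) h
    have hb : b ∉ Δ := fun h => (hΔC.ge (Set.mem_insert_of_mem a rfl)) h
    exact ⟨g, hg a ha, hg b hb, hgc⟩
  refine ⟨fun x y => ?_⟩
  obtain ⟨g₁, hg10, hg11⟩ := h2t (x.injective.ne (show (0 : Fin 3) ≠ 1 by decide)) hab
  obtain ⟨g₂, hg20, hg21⟩ := h2t hab (y.injective.ne (show (0 : Fin 3) ≠ 1 by decide))
  have e1 : g₂⁻¹ • y 0 = a := by rw [inv_smul_eq_iff, hg20]
  have e2 : g₂⁻¹ • y 1 = b := by rw [inv_smul_eq_iff, hg21]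
  have hx : ∀ i : Fin 3, i ≠ 2 → g₁ • x 2 ≠ g₁ • x i := fun i hi =>
    fun h => hi (x.injective (smul_left_cancel g₁ h)).symm
  have hy : ∀ i : Fin 3, i ≠ 2 → g₂⁻¹ • y 2 ≠ g₂⁻¹ • y i := fun i hi =>
    fun h => hi (y.injective (smul_left_cancel g₂⁻¹ h)).symm
  obtain ⟨g, hga, hgb, hgc⟩ := htr (g₁ • x 2) (g₂⁻¹ • y 2)
    (by have := hx 0 (by decide); rwa [hg10] at this)
    (by have := hx 1 (by decide); rwa [hg11] at this)
    (by have := hy 0 (by decide); rwa [e1] at this)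
    (by have := hy 1 (by decide); rwa [e2] at this)
  refine ⟨g₂ * g * g₁, ?_⟩
  ext i
  rw [Function.Embedding.smul_apply, mul_smul, mul_smul]
  fin_cases i
  · simp [hg10, hga, hg20]
  · simp [hg11, hgb, hg21]
  · simp [hgc]

end CfsgLib.Perm57
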