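import Mathlib

/-!
The order of an abelian `p`-group of permutations of given rank.
-/

set_option autoImplicit false

namespace CfsgLib.Perm57

open Equiv MulAction

/-- Product of `k` naturals times `k ^ k` is at most the `k`-th power of their sum. -/
theorem prod_mul_pow_le_sum_pow {k : ℕ} (z : Fin k → ℕ) :
    (∏ i, z i) * k ^ k ≤ (∑ i, z i) ^ k := by
  rcases Nat.eq_zero_or_pos k with rfl | hk
  · simp
  have hk' : (k : ℝ) ≠ 0 := by exact_mod_cast hk.ne'
  have h := Real.geom_mean_le_arith_mean_weighted Finset.univ (fun _ => 1 / (k : ℝ))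
    (fun i => (z i : ℝ)) (fun i _ => by positivity) (by simp [hk']) (fun i _ => by positivity)
  rw [Real.finsetProd_rpow _ _ (fun i _ => by positivity), ← Finset.mul_sum] at h
  have h2 := pow_le_pow_left₀ (by positivity) h k
  rw [← Real.rpow_natCast (((∏ i, (z i : ℝ))) ^ (1 / (k : ℝ))),
    ← Real.rpow_mul (by positivity), one_div_mul_cancel hk', Real.rpow_one, mul_pow,
    one_div_pow, one_div_mul_eq_div, le_div_iff₀ (by positivity)] at h2
  exact_mod_cast h2

variable {Ω : Type*} [Fintype Ω] [DecidableEq Ω]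

theorem exists_sum_bound (p : ℕ) (hp : p.Prime) :
    ∀ (n : ℕ) (B : Subgroup (Perm Ω)) (S : Finset Ω), Nat.card B = n → IsPGroup p B →
      (∀ x ∈ B, ∀ y ∈ B, x * y = y * x) → (∀ b ∈ B, ∀ z ∉ S, b z = z) →
      ∀ j, Nat.card {x : B // x ^ p = 1} = p ^ j →
      ∃ L : List ℕ, L.length = j ∧ Nat.card B ≤ L.prod ∧ L.sum ≤ S.card := by
  intro n
  induction n using Nat.strong_induction_on with | _ n ih => ?_
  intro B S hn hB hcomm hsupp j hj
  classical
  haveI := Fact.mk hp
  letI : CommGroup B := { (inferInstance : Group B) with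
    mul_comm := fun x y => Subtype.ext (hcomm x x.2 y y.2) }
  by_cases hbot : B = ⊥
  · subst hbot
    have : j = 0 := by
      haveI : Unique {x : (⊥ : Subgroup (Perm Ω)) // x ^ p = 1} :=
        { default := ⟨1, one_pow p⟩
          uniq := fun a => Subtype.ext (Subsingleton.elim _ _) }
      rw [Nat.card_unique] at hj
      exact (Nat.pow_eq_one.mp hj.symm).resolve_left hp.one_lt.ne'
    exact ⟨[], by simp [this], by simp, by simp⟩
  · haveI : Nontrivial B := (Subgroup.nontrivial_iff_ne_bot B).mpr hbot
    obtain ⟨c, hc⟩ := IsPGroup.iff_card.mp hB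
    have hpB : p ∣ Nat.card B := by
      have := Finite.one_lt_card (α := B)
      rcases c with - | c
      · rw [hc, pow_zero] at this; omega
      · rw [hc]; exact dvd_pow_self p c.succ_ne_zero
    obtain ⟨x, hx⟩ := exists_prime_orderOf_dvd_card' p hpB
    obtain ⟨ω, hω⟩ : ∃ ω, (x : Perm Ω) ω ≠ ω := by
      by_contra h
      push_neg at h
      have : x = 1 := Subtype.ext (Equiv.ext h)
      rw [this, orderOf_one] at hx
      exact hp.one_lt.ne hx
    set W : Subgroup B := (powMonoidHom p : B →* B).ker with hW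
    have hWcard : Nat.card W = p ^ j := by
      rw [← hj]
      exact Nat.card_congr (Equiv.subtypeEquivRight fun y => by simp [hW, MonoidHom.mem_ker])
    set B' : Subgroup (Perm Ω) := B ⊓ stabilizer (Perm Ω) ω with hB'
    set O : Finset Ω := Finset.univ.filter (fun z => ∃ b ∈ B, b ω = z) with hO
    have hOorb : (O : Set Ω) = orbit B ω := by
      ext z
      simp [hO, orbit, Subgroup.smul_def]
    have hOcard : O.card = (stabilizer B ω).index := by
      rw [index_stabilizer, ← hOorb, Set.ncard_coe_finset]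
    have hstab : Nat.card (stabilizer B ω) = Nat.card B' := by
      have e : stabilizer B ω = B'.subgroupOf B := by
        ext y; simp [hB', Subgroup.mem_subgroupOf, Subgroup.smul_def]
      rw [e]
      exact Nat.card_congr (Subgroup.subgroupOfEquivOfLe inf_le_left).toEquiv
    have hprod : Nat.card B = Nat.card B' * O.card := by
      rw [hOcard, ← hstab, Subgroup.card_mul_index]
    have hlt : Nat.card B' < n := by
      rw [← hn]
      refine lt_of_le_of_ne (Subgroup.card_le_of_le inf_le_left) (fun h => hω ?_)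
      have := Subgroup.eq_of_le_of_card_ge (inf_le_left : B' ≤ B) h.ge
      have hxmem : (x : Perm Ω) ∈ B' := (SetLike.ext_iff.mp this _).mpr x.2
      exact mem_stabilizer_iff.mp (Subgroup.mem_inf.mp hxmem).2
    have hB'p : IsPGroup p B' := hB.to_le inf_le_left
    obtain ⟨j', hj'⟩ : ∃ j', Nat.card {x : B' // x ^ p = 1} = p ^ j' := by
      letI : CommGroup B' := { (inferInstance : Group B') with
        mul_comm := fun x y => Subtype.ext (hcomm x (Subgroup.mem_inf.mp x.2).1 y
          (Subgroup.mem_inf.mp y.2).1) }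
      obtain ⟨i, hi⟩ := IsPGroup.iff_card.mp (hB'p.to_subgroup (powMonoidHom p : B' →* B').ker)
      refine ⟨i, ?_⟩
      rw [← hi]
      exact Nat.card_congr (Equiv.subtypeEquivRight fun y => by simp [MonoidHom.mem_ker])
    have hsupp' : ∀ b ∈ B', ∀ z ∉ S \ O, b z = z := by
      intro b hb z hz
      obtain ⟨hbB, hbω⟩ := Subgroup.mem_inf.mp hb
      rw [Finset.mem_sdiff, not_and, not_not] at hz
      by_cases hzS : z ∈ S
      · obtain ⟨g, hg, rfl⟩ := (Finset.mem_filter.mp (hz hzS)).2
        have : b * g = g * b := hcomm b hbB g hg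
        have h2 := congrArg (fun f : Perm Ω => f ω) this
        simp only [Perm.mul_apply] at h2
        rw [h2]
        exact congrArg g (mem_stabilizer_iff.mp hbω)
      · exact hsupp b hbB z hzS
    obtain ⟨L, hLlen, hLprod, hLsum⟩ := ih _ hlt B' (S \ O) rfl hB'p
      (fun a ha b hb => hcomm a (Subgroup.mem_inf.mp ha).1 b (Subgroup.mem_inf.mp hb).1)
      hsupp' j' hj'
    have hOS : O ⊆ S := by
      intro z hz
      obtain ⟨g, hg, rfl⟩ := (Finset.mem_filter.mp hz).2
      have hωS : ω ∈ S := by
        by_contra h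
        exact hω (hsupp x x.2 ω h)
      by_contra h
      have := hsupp g hg _ h
      rw [g.injective this] at h
      exact h hωS
    obtain ⟨e, -, he⟩ := (Nat.dvd_prime_pow hp).mp
      (show O.card ∣ p ^ c from hc ▸ hprod ▸ dvd_mul_left _ _)
    have hsum : O.card + (S \ O).card = S.card := by
      rw [add_comm, Finset.card_sdiff_add_card_eq_card hOS]
    have hbound : p ^ j ≤ p ^ (j' + e) := by
      rw [← hWcard, pow_add, ← hj', ← he]
      set K : Subgroup W := (stabilizer B ω).subgroupOf W with hK
      have h1 := Subgroup.card_mul_index K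
      have h2 : Nat.card K ≤ Nat.card {x : B' // x ^ p = 1} := by
        refine Nat.card_le_card_of_injective
          (fun y => ⟨⟨((y : W) : B), Subgroup.mem_inf.mpr ⟨((y : W) : B).2,
            mem_stabilizer_iff.mpr (mem_stabilizer_iff.mp (Subgroup.mem_subgroupOf.mp y.2))⟩⟩, ?_⟩)
          ?_
        · have h' : ((y : W) : B) ^ p = 1 := MonoidHom.mem_ker.mp (y : W).2
          exact Subtype.ext (congrArg Subtype.val h' :)
        · intro a b hab
          exact Subtype.ext (Subtype.ext (Subtype.ext (congrArg (fun z => ((z.1 : B') : Perm Ω)) hab)))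
      have h3 : K.index ≤ O.card := by
        rw [hOcard]
        exact Nat.le_of_dvd (Nat.pos_of_ne_zero Subgroup.index_ne_zero_of_finite)
          (Subgroup.relIndex_dvd_index_of_normal _ _)
      rw [← h1]
      exact Nat.mul_le_mul h2 h3
    have hje : j ≤ j' + e := (Nat.pow_le_pow_iff_right hp.one_lt).mp hbound
    have hjj : j' < j := by
      apply (Nat.pow_lt_pow_iff_right hp.one_lt).mp
      rw [← hj', ← hj]
      let f : {y : B' // y ^ p = 1} → {y : B // y ^ p = 1} := fun y =>
        ⟨⟨y.1, (Subgroup.mem_inf.mp y.1.2).1⟩,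
          Subtype.ext (congrArg Subtype.val y.2 :)⟩
      refine lt_of_le_of_ne (Nat.card_le_card_of_injective f ?_) (fun hc' => ?_)
      · intro a b hab
        exact Subtype.ext (Subtype.ext (congrArg (fun z => ((z.1 : B) : Perm Ω)) hab))
      · have hinjf : Function.Injective f := fun a b hab =>
          Subtype.ext (Subtype.ext (congrArg (fun z => ((z.1 : B) : Perm Ω)) hab))
        have hsurj := (hinjf.bijective_of_nat_card_le hc'.ge).2
        obtain ⟨y, hy⟩ := hsurj ⟨x, hx ▸ pow_orderOf_eq_one x⟩
        apply hω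
        have : (y.1 : Perm Ω) = x := congrArg (fun z => ((z.1 : B) : Perm Ω)) hy
        rw [← this]
        exact mem_stabilizer_iff.mp (Subgroup.mem_inf.mp y.1.2).2
    obtain ⟨r, hr⟩ : ∃ r, j = j' + r + 1 := ⟨j - j' - 1, by omega⟩
    refine ⟨(p ^ (e - r)) :: List.replicate r p ++ L, ?_, ?_, ?_⟩
    · simp [hLlen]; omega
    · simp only [List.cons_append, List.prod_cons, List.prod_append, List.prod_replicate]
      rw [hprod, he, ← mul_assoc, ← pow_add, show e - r + r = e by omega, mul_comm]
      exact Nat.mul_le_mul_left _ hLprod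
    · simp only [List.cons_append, List.sum_cons, List.sum_append, List.sum_replicate, smul_eq_mul]
      have hlin : p ^ (e - r) + r * p ≤ p ^ e := by
        have h1 : p ≤ p ^ (e - r) := Nat.le_self_pow (by omega) p
        calc p ^ (e - r) + r * p ≤ p ^ (e - r) + r * p ^ (e - r) :=
              Nat.add_le_add_left (Nat.mul_le_mul_left r h1) _
          _ = (r + 1) * p ^ (e - r) := by ring
          _ ≤ p ^ r * p ^ (e - r) := Nat.mul_le_mul_right _ (Nat.lt_pow_self hp.one_lt)
          _ = p ^ e := by rw [← pow_add]; congr 1; omega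
      omega

theorem abelian_pgroup_bound (p : ℕ) (hp : p.Prime) (A : Subgroup (Perm Ω)) (hA : IsPGroup p A)
    (hab : IsMulCommutative A) (k : ℕ) (hk : Nat.card {x : A // x ^ p = 1} = p ^ k) :
    Nat.card A * k ^ k ≤ Fintype.card Ω ^ k := by
  have hcomm : ∀ x ∈ A, ∀ y ∈ A, x * y = y * x := fun x hx y hy =>
    congrArg Subtype.val (hab.is_comm.comm (⟨x, hx⟩ : A) ⟨y, hy⟩)
  obtain ⟨L, hlen, hprod, hsum⟩ := exists_sum_bound p hp _ A Finset.univ rfl hA hcomm
    (fun b _ z hz => absurd (Finset.mem_univ z) hz) k hk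
  subst hlen
  calc Nat.card A * L.length ^ L.length ≤ L.prod * L.length ^ L.length :=
        Nat.mul_le_mul_right _ hprod
    _ = (∏ i : Fin L.length, L[i.1]) * L.length ^ L.length := by rw [Fin.prod_univ_getElem]
    _ ≤ (∑ i : Fin L.length, L[i.1]) ^ L.length := prod_mul_pow_le_sum_pow _
    _ ≤ Fintype.card Ω ^ L.length := by
        rw [Fin.sum_univ_getElem]
        exact Nat.pow_le_pow_left (by simpa using hsum) _

end CfsgLib.Perm57
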