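import Mathlib

/-!
The pairs-partition stabiliser in `A₈` is not maximal.
-/

set_option autoImplicit false

namespace CfsgLib.Perm57

open Equiv

/-- Addition in `F₂³` on `Fin 8`. -/
def xr (x y : Fin 8) : Fin 8 := ⟨(x.1 ^^^ y.1) % 8, Nat.mod_lt _ (by norm_num)⟩

theorem xr_assoc : ∀ a b c : Fin 8, xr (xr a b) c = xr a (xr b c) := by decide +kernel
theorem xr_comm : ∀ a b : Fin 8, xr a b = xr b a := by decide +kernel
theorem xr_self : ∀ a : Fin 8, xr a a = 0 := by decide +kernel
theorem xr_zero : ∀ a : Fin 8, xr a 0 = a := by decide +kernel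

theorem pairPerm_check : ∀ (π : Perm (Fin 4)) (c : Fin 4 → Fin 2),
    Perm.sign ((finProdFinEquiv (m := 4) (n := 2)).permCongr
      ((prodShear π fun i => Equiv.addRight (c i)) : Perm (Fin 4 × Fin 2))) = 1 →
    ∀ y z : Fin 8,
      (finProdFinEquiv (m := 4) (n := 2)).permCongr
        ((prodShear π fun i => Equiv.addRight (c i)) : Perm (Fin 4 × Fin 2)) (xr y z) =
      xr ((finProdFinEquiv (m := 4) (n := 2)).permCongr
          ((prodShear π fun i => Equiv.addRight (c i)) : Perm (Fin 4 × Fin 2)) 0)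
        (xr ((finProdFinEquiv (m := 4) (n := 2)).permCongr
            ((prodShear π fun i => Equiv.addRight (c i)) : Perm (Fin 4 × Fin 2)) y)
          ((finProdFinEquiv (m := 4) (n := 2)).permCongr
            ((prodShear π fun i => Equiv.addRight (c i)) : Perm (Fin 4 × Fin 2)) z)) := by
  decide +kernel

/-- Even permutations of `Fin 8` preserving the four pairs are affine. -/
theorem pairPerm_affine (σ : Perm (Fin 8)) (hσ : Perm.sign σ = 1)
    (h : ∀ x y : Fin 8, x.1 / 2 = y.1 / 2 ↔ (σ x).1 / 2 = (σ y).1 / 2) (x y z : Fin 8) :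
    σ (xr (xr x y) z) = xr (xr (σ x) (σ y)) (σ z) := by
  set e : Fin 4 × Fin 2 ≃ Fin 8 := finProdFinEquiv
  have he : ∀ q : Fin 4 × Fin 2, (e q).1 = q.2.1 + 2 * q.1.1 := fun q => rfl
  set τ : Perm (Fin 4 × Fin 2) := e.symm.permCongr σ
  have hτ : ∀ q, τ q = e.symm (σ (e q)) := fun q => rfl
  have hfst : ∀ q r : Fin 4 × Fin 2, q.1 = r.1 ↔ (τ q).1 = (τ r).1 := by
    intro q r
    have h1 := h (e q) (e r)
    have h2 := he (τ q)
    have h3 := he (τ r)
    rw [hτ, e.apply_symm_apply] at h2 h3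
    rw [← hτ] at h2 h3
    rw [he, he, h2, h3] at h1
    have hq := q.2.2; have hr := r.2.2; have hq' := (τ q).2.2; have hr' := (τ r).2.2
    rw [Fin.ext_iff, Fin.ext_iff]
    omega
  have hinj : Function.Injective fun i : Fin 4 => (τ (i, 0)).1 := fun i j hij =>
    (hfst (i, 0) (j, 0)).mpr hij
  let π : Perm (Fin 4) := Equiv.ofBijective _ (Finite.injective_iff_bijective.mp hinj)
  have hτeq : τ = (prodShear π fun i => Equiv.addRight ((τ (i, 0)).2) : Perm (Fin 4 × Fin 2)) := by
    ext q : 1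
    obtain ⟨i, j⟩ := q
    show τ (i, j) = (π i, j + (τ (i, 0)).2)
    have hπ : π i = (τ (i, 0)).1 := rfl
    refine Prod.ext ?_ ?_
    · rw [hπ]; exact (hfst (i, j) (i, 0)).mp rfl
    · fin_cases j
      · simp
      · show (τ (i, 1)).2 = 1 + (τ (i, 0)).2
        have hne : (τ (i, 1)).2 ≠ (τ (i, 0)).2 := fun h2 => by
          have := τ.injective (Prod.ext ((hfst (i, 1) (i, 0)).mp rfl) h2)
          simp at this
        revert hne
        generalize (τ (i, 1)).2 = u
        generalize (τ (i, 0)).2 = v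
        revert u v
        decide
  have hσeq : σ = e.permCongr (prodShear π fun i => Equiv.addRight ((τ (i, 0)).2)) := by
    rw [← hτeq]
    ext x : 1
    simp [τ, Equiv.permCongr_apply]
  have key : ∀ y z, σ (xr y z) = xr (σ 0) (xr (σ y) (σ z)) := by
    have := pairPerm_check π (fun i => (τ (i, 0)).2) (by rw [← hσeq]; exact hσ)
    rw [hσeq]
    exact this
  rw [key (xr x y) z, key x y]
  calc xr (σ 0) (xr (xr (σ 0) (xr (σ x) (σ y))) (σ z))
      = xr (xr (σ 0) (σ 0)) (xr (xr (σ x) (σ y)) (σ z)) := by simp only [xr_assoc]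
    _ = xr (xr (σ x) (σ y)) (σ z) := by rw [xr_self, xr_comm, xr_zero]

theorem pairs_stabilizer_not_maximal {Ω : Type*} [Fintype Ω] [DecidableEq Ω]
    (f : Ω → Fin 4) (hf : ∀ i : Fin 4, Nat.card {x : Ω // f x = i} = 2) :
    ¬ IsCoatom ((Subgroup.closure {g : Equiv.Perm Ω | ∀ x y : Ω, f x = f y ↔ f (g x) = f (g y)} ⊓
      alternatingGroup Ω).subgroupOf (alternatingGroup Ω)) := by
  intro hco
  have hfib : ∀ i : Fin 4, Nonempty ({x : Ω // f x = i} ≃ Fin 2) := fun i =>
    ⟨Fintype.equivFinOfCardEq (by rw [← Nat.card_eq_fintype_card]; exact hf i)⟩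
  let ef := fun i => (hfib i).some
  let e : Ω ≃ Fin 8 :=
    (Equiv.sigmaFiberEquiv f).symm.trans
      ((Equiv.sigmaCongrRight ef).trans ((Equiv.sigmaEquivProd _ _).trans finProdFinEquiv))
  have hef : ∀ x, (e x).1 / 2 = (f x).1 := by
    intro x
    have : (e x).1 = (ef (f x) ⟨x, rfl⟩).1 + 2 * (f x).1 := rfl
    have := (ef (f x) ⟨x, rfl⟩).2
    omega
  let K : Subgroup (Perm Ω) :=
    { carrier := {g | ∀ x y z : Fin 8, e (g (e.symm (xr (xr x y) z))) =
        xr (xr (e (g (e.symm x))) (e (g (e.symm y)))) (e (g (e.symm z)))}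
      one_mem' := fun x y z => by simp
      mul_mem' := fun {g h} hg hh x y z => by
        have h1 := hg (e (h (e.symm x))) (e (h (e.symm y))) (e (h (e.symm z)))
        simp only [Equiv.symm_apply_apply] at h1
        simp only [Perm.mul_apply]
        rw [← h1, ← hh x y z, Equiv.symm_apply_apply]
      inv_mem' := fun {g} hg x y z => by
        have h1 := hg (e (g⁻¹ (e.symm x))) (e (g⁻¹ (e.symm y))) (e (g⁻¹ (e.symm z)))
        simp only [Equiv.symm_apply_apply, Perm.inv_def, Equiv.apply_symm_apply] at h1 ⊢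
        rw [← h1]
        simp }
  let P : Subgroup (Perm Ω) :=
    { carrier := {g : Equiv.Perm Ω | ∀ x y : Ω, f x = f y ↔ f (g x) = f (g y)}
      one_mem' := fun x y => Iff.rfl
      mul_mem' := fun {g h} hg hh x y => (hh x y).trans (hg (h x) (h y))
      inv_mem' := fun {g} hg x y => by
        have := hg (g⁻¹ x) (g⁻¹ y)
        simp only [Perm.inv_def, Equiv.apply_symm_apply] at this ⊢
        exact this.symm }
  have hP : Subgroup.closure {g : Equiv.Perm Ω | ∀ x y : Ω, f x = f y ↔ f (g x) = f (g y)} = P :=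
    Subgroup.closure_eq P
  rw [hP] at hco
  have hle : ∀ g : Perm Ω, g ∈ P → g ∈ alternatingGroup Ω → g ∈ K := by
    intro g hg hga x y z
    have hs : Perm.sign (e.permCongr g) = 1 := by
      rw [Perm.sign_permCongr]; exact Perm.mem_alternatingGroup.mp hga
    have hpair : ∀ x y : Fin 8,
        x.1 / 2 = y.1 / 2 ↔ (e.permCongr g x).1 / 2 = (e.permCongr g y).1 / 2 := by
      intro x y
      have h1 := hg (e.symm x) (e.symm y)
      simp only [Fin.ext_iff, ← hef, Equiv.apply_symm_apply] at h1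
      exact h1
    exact pairPerm_affine (e.permCongr g) hs hpair x y z
  -- an affine permutation outside `P`
  let s : Perm Ω := e.symm.permCongr (Equiv.swap 1 2 * Equiv.swap 5 6)
  have hsA : s ∈ alternatingGroup Ω := by
    rw [Perm.mem_alternatingGroup, Perm.sign_permCongr]; decide +kernel
  have hsK : s ∈ K := by
    have h : ∀ x y z : Fin 8, (Equiv.swap 1 2 * Equiv.swap 5 6 : Perm (Fin 8)) (xr (xr x y) z) =
        xr (xr ((Equiv.swap 1 2 * Equiv.swap 5 6 : Perm (Fin 8)) x)
          ((Equiv.swap 1 2 * Equiv.swap 5 6 : Perm (Fin 8)) y))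
          ((Equiv.swap 1 2 * Equiv.swap 5 6 : Perm (Fin 8)) z) := by decide +kernel
    intro x y z
    simp only [s, Equiv.permCongr_apply, Equiv.symm_symm, Equiv.apply_symm_apply]
    exact h x y z
  have hsP : s ∉ P := by
    intro hs
    have h1 := (hs (e.symm 0) (e.symm 1)).mp
    simp only [Fin.ext_iff, ← hef, s, Equiv.permCongr_apply, Equiv.symm_symm,
      Equiv.apply_symm_apply] at h1
    exact absurd (h1 (by decide)) (by decide)
  -- an even permutation outside `K`
  let t : Perm Ω := e.symm.permCongr (Equiv.swap 0 1 * Equiv.swap 1 2)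
  have htA : t ∈ alternatingGroup Ω := by
    rw [Perm.mem_alternatingGroup, Perm.sign_permCongr]; decide +kernel
  have htK : t ∉ K := by
    intro ht
    have h1 := ht 0 4 1
    simp only [t, Equiv.permCongr_apply, Equiv.symm_symm, Equiv.apply_symm_apply] at h1
    exact absurd h1 (by decide +kernel)
  have hlt : (P ⊓ alternatingGroup Ω).subgroupOf (alternatingGroup Ω) <
      K.subgroupOf (alternatingGroup Ω) := by
    refine lt_of_le_of_ne (fun x hx => hle x hx.1 hx.2) fun he => hsP ?_
    have : (⟨s, hsA⟩ : alternatingGroup Ω) ∈ (P ⊓ alternatingGroup Ω).subgroupOf _ := by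
      rw [he]; exact hsK
    exact this.1
  have htop := hco.2 _ hlt
  exact htK (Subgroup.subgroupOf_eq_top.mp htop htA)

end CfsgLib.Perm57
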