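import Mathlib.GroupTheory.Sylow
import Mathlib.GroupTheory.Perm.Sign
import Cfsg.Prelude.Def_HallClasses
import Cfsg.Agent.Eq.Def_HallClasses
import Cfsg.Agent.PermGroups.PrimeDegree
import Cfsg.Agent.PermGroups.Burnside

/-!
The Hall properties `E_π` and `D_π` hold in every finite group only for trivial prime sets.
-/

set_option autoImplicit false
set_option linter.style.haveILetI false

open MulAction Cfsg
open scoped Pointwise

namespace CfsgLib.HallUniversal

variable {G : Type*} [Group G] {π : Set ℕ}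

/-- A Hall `π`-subgroup contains a Sylow `p`-subgroup for every prime `p` in `π`. -/
theorem exists_sylow_le_of_isPiHall [Finite G] {H : Subgroup G} (hH : IsPiHall π H) {p : ℕ}
    [Fact p.Prime] (hp : p ∈ π) : ∃ P : Sylow p G, (P : Subgroup G) ≤ H := by
  obtain ⟨P⟩ : Nonempty (Sylow p H) := inferInstance
  have hf : (Nat.card G).factorization p = (Nat.card H).factorization p := by
    rw [← Subgroup.card_mul_index H, Nat.factorization_mul Nat.card_pos.ne'
      Subgroup.index_ne_zero_of_finite, Finsupp.add_apply,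
      Nat.factorization_eq_zero_of_not_dvd (hH.2 p Fact.out hp), add_zero]
  have hc : Nat.card ((P : Subgroup H).map H.subtype) = p ^ (Nat.card G).factorization p := by
    rw [Subgroup.card_map_of_injective H.subtype_injective, P.card_eq_multiplicity, hf]
  exact ⟨Sylow.ofCard _ hc, Subgroup.map_subtype_le _⟩

/-- The image of a Hall subgroup under a conjugation is a Hall subgroup. -/
theorem isPiHall_map_conj {H : Subgroup G} (hH : IsPiHall π H) (g : G) :
    IsPiHall π (H.map (MulAut.conj g).toMonoidHom) := by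
  have hc : Nat.card (H.map (MulAut.conj g).toMonoidHom) = Nat.card H :=
    Subgroup.card_map_of_injective (MulAut.conj g).injective
  have hi : (H.map (MulAut.conj g).toMonoidHom).index = H.index :=
    Subgroup.index_map_equiv H (MulAut.conj g)
  exact ⟨fun p hp h => hH.1 p hp (hc ▸ h), fun p hp hpπ => hi.symm ▸ hH.2 p hp hpπ⟩

/-- `D_π` implies `E_π`. -/
theorem ePi_of_dPi [Finite G] (h : IsDPiGroup π G) : IsEPiGroup π G := by
  have hbot : IsPiSubgroup π (⊥ : Subgroup G) := fun p hp hd => by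
    rw [Subgroup.card_bot, Nat.dvd_one] at hd
    exact absurd hd hp.ne_one
  obtain ⟨H, -, hH⟩ := Finite.exists_le_maximal hbot
  refine ⟨H, hH.prop, fun p hp hpπ hd => ?_⟩
  haveI : Fact p.Prime := ⟨hp⟩
  obtain ⟨P⟩ : Nonempty (Sylow p G) := inferInstance
  have hP : IsPiSubgroup π (P : Subgroup G) := fun r hr hrd => by
    rw [P.card_eq_multiplicity] at hrd
    exact ((Nat.prime_dvd_prime_iff_eq hr hp).1 (hr.dvd_of_dvd_pow hrd)).symm ▸ hpπ
  obtain ⟨K, hPK, hK⟩ := Finite.exists_le_maximal hP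
  obtain ⟨g, rfl⟩ := h H K hH hK
  have h1 := Subgroup.card_dvd_of_le hPK
  rw [Subgroup.card_map_of_injective (MulAut.conj g).injective, P.card_eq_multiplicity] at h1
  have h2 : p ^ ((Nat.card G).factorization p + 1) ∣ Nat.card G := by
    rw [pow_succ]
    exact (Nat.mul_dvd_mul h1 hd).trans (Subgroup.card_mul_index H).dvd
  rw [hp.pow_dvd_iff_le_factorization Nat.card_pos.ne'] at h2
  omega

/-- `D_π` holds when `π` contains every prime. -/
theorem dPi_of_all [Finite G] (h : ∀ p : ℕ, p.Prime → p ∈ π) : IsDPiGroup π G := by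
  intro H K hH hK
  have hall : ∀ L : Subgroup G, Maximal (IsPiSubgroup π) L → L = ⊤ := fun L hL =>
    le_antisymm le_top (hL.le_of_ge (fun p hp _ => h p hp) le_top)
  refine ⟨1, ?_⟩
  rw [hall H hH, hall K hK, Subgroup.map_top_of_surjective]
  exact (MulAut.conj (1 : G)).surjective

/-- `D_π` holds when `π` contains at most one prime. -/
theorem dPi_of_subsingleton [Finite G]
    (h : ∀ p q : ℕ, p.Prime → q.Prime → p ∈ π → q ∈ π → p = q) : IsDPiGroup π G := by
  intro H K hH hK
  by_cases he : ∃ p : ℕ, p.Prime ∧ p ∈ π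
  · obtain ⟨p, hp, hpπ⟩ := he
    haveI : Fact p.Prime := ⟨hp⟩
    have key : ∀ L : Subgroup G, Maximal (IsPiSubgroup π) L →
        ∃ P : Sylow p G, (P : Subgroup G) = L := by
      intro L hL
      have hL' : IsPGroup p L := by
        refine IsPGroup.of_card (n := (Nat.card L).primeFactorsList.length)
          (Nat.eq_prime_pow_of_unique_prime_dvd Nat.card_pos.ne' ?_)
        intro d hd hdd
        exact h d p hd hp (hL.prop d hd hdd) hpπ
      obtain ⟨P, hP⟩ := hL'.exists_le_sylow
      refine ⟨P, le_antisymm (hL.le_of_ge (fun r hr hrd => ?_) hP) hP⟩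
      rw [P.card_eq_multiplicity] at hrd
      exact ((Nat.prime_dvd_prime_iff_eq hr hp).1 (hr.dvd_of_dvd_pow hrd)).symm ▸ hpπ
    obtain ⟨P, rfl⟩ := key H hH
    obtain ⟨Q, rfl⟩ := key K hK
    obtain ⟨g, rfl⟩ := exists_smul_eq G P Q
    exact ⟨g, rfl⟩
  · have key : ∀ L : Subgroup G, Maximal (IsPiSubgroup π) L → L = ⊥ := fun L hL => by
      rw [← Subgroup.card_eq_one]
      by_contra hne
      obtain ⟨r, hr, hrd⟩ := Nat.exists_prime_and_dvd hne
      exact he ⟨r, hr, hL.prop r hr hrd⟩
    exact ⟨1, by rw [key H hH, key K hK, Subgroup.map_bot]⟩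

/-- The subgroup of permutations moving every point only to its partner under `f`. -/
def pairGroup {α : Type*} (f : α → α) (hf : Function.Involutive f) :
    Subgroup (Equiv.Perm α) where
  carrier := {σ | ∀ x, σ x = x ∨ σ x = f x}
  mul_mem' := by
    intro a b ha hb x
    rcases hb x with h | h
    · rw [Equiv.Perm.mul_apply, h]
      exact ha x
    · rw [Equiv.Perm.mul_apply, h]
      rcases ha (f x) with h' | h'
      · exact Or.inr h'
      · exact Or.inl (h'.trans (hf x))
  one_mem' := fun x => Or.inl rfl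
  inv_mem' := by
    intro a ha x
    have hx : a (a x) = x := by
      rcases ha x with h | h
      · rw [h, h]
      · rcases ha (f x) with h' | h'
        · have h2 : a (f x) = a x := h'.trans h.symm
          have h3 : f x = x := a.injective h2
          rw [h, h', h3]
        · rw [h, h', hf x]
    rw [show a⁻¹ x = a x from Equiv.Perm.inv_eq_iff_eq.2 hx.symm]
    exact ha x

/-- The pair group has exponent two. -/
theorem isPGroup_pairGroup {α : Type*} (f : α → α) (hf : Function.Involutive f) :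
    IsPGroup 2 (pairGroup f hf) := by
  intro g
  refine ⟨1, Subtype.ext (Equiv.ext fun x => ?_)⟩
  rw [pow_one, pow_two]
  change (g : Equiv.Perm α) ((g : Equiv.Perm α) x) = x
  rcases g.2 x with h | h
  · rw [h, h]
  · rcases g.2 (f x) with h' | h'
    · have h3 : f x = x := (g : Equiv.Perm α).injective (h'.trans h.symm)
      rw [h, h', h3]
    · rw [h, h', hf x]

/-- A finite set with a fixed-point-free involution has even size. -/
theorem even_card_of_involution {α : Type*} (s : Finset α) (f : α → α)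
    (hmem : ∀ x ∈ s, f x ∈ s) (hne : ∀ x ∈ s, f x ≠ x) (hinv : ∀ x ∈ s, f (f x) = x) :
    Even s.card := by
  have h : ∑ _x ∈ s, (1 : ZMod 2) = 0 :=
    Finset.sum_involution (fun a _ => f a) (fun a _ => by decide) (fun a ha _ => hne a ha)
      (fun a ha => hmem a ha) (fun a ha => hinv a ha)
  rw [Finset.sum_const, nsmul_one, ZMod.natCast_eq_zero_iff] at h
  exact even_iff_two_dvd.2 h

/-- A transitive group containing the disjoint transpositions of an almost perfect pairing is
the symmetric group. -/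
theorem eq_top_of_pairing {α : Type*} [Fintype α] [DecidableEq α] {H : Subgroup (Equiv.Perm α)}
    (htr : ∀ x y : α, ∃ h ∈ H, h x = y) (f : α → α) (hf : Function.Involutive f) (x₀ : α)
    (hfix : ∀ x, f x = x ↔ x = x₀) (hle : pairGroup f hf ≤ H) : H = ⊤ := by
  classical
  let C : α → Finset α := fun x => Finset.univ.filter fun y => Equiv.swap x y ∈ H
  have hC : ∀ x y, y ∈ C x ↔ Equiv.swap x y ∈ H := fun x y => by simp [C]
  have htrans : ∀ x y z, Equiv.swap x y ∈ H → Equiv.swap y z ∈ H → Equiv.swap x z ∈ H := by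
    intro x y z h1 h2
    by_cases hxy : x = y
    · rwa [hxy]
    by_cases hxz : x = z
    · rw [hxz, Equiv.swap_self]; exact H.one_mem
    rw [Equiv.swap_comm x z, ← Equiv.swap_mul_swap_mul_swap hxy hxz]
    exact H.mul_mem (H.mul_mem h2 h1) h2
  have hfm : ∀ x, Equiv.swap x (f x) ∈ H := by
    intro x
    apply hle
    intro z
    by_cases h1 : z = x
    · exact Or.inr (by rw [h1, Equiv.swap_apply_left])
    by_cases h2 : z = f x
    · exact Or.inr (by rw [h2, Equiv.swap_apply_right, hf x])
    exact Or.inl (Equiv.swap_apply_of_ne_of_ne h1 h2)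
  have hinvC : ∀ x y, y ∈ C x → f y ∈ C x := fun x y hy =>
    (hC _ _).2 (htrans _ _ _ ((hC _ _).1 hy) (hfm y))
  have hcard : ∀ x y, (C x).card = (C y).card := by
    intro x y
    obtain ⟨h, hh, rfl⟩ := htr x y
    refine Finset.card_equiv h fun z => ?_
    rw [hC, hC, Equiv.swap_apply_apply]
    constructor
    · exact fun h1 => H.mul_mem (H.mul_mem hh h1) (H.inv_mem hh)
    · intro h1
      have := H.mul_mem (H.mul_mem (H.inv_mem hh) h1) hh
      simpa [mul_assoc] using this
  have hall : ∀ x, Equiv.swap x₀ x ∈ H := by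
    intro x
    by_contra hx
    have h0 : x₀ ∉ C x := fun h => hx (by rw [Equiv.swap_comm]; exact (hC _ _).1 h)
    have he : Even (C x).card := even_card_of_involution _ f (hinvC x)
      (fun y hy he => h0 ((hfix y).1 he ▸ hy)) (fun y _ => hf y)
    have hmem : x₀ ∈ C x₀ := (hC _ _).2 (by rw [Equiv.swap_self]; exact H.one_mem)
    have he' : Even ((C x₀).erase x₀).card := by
      refine even_card_of_involution _ f (fun y hy => ?_) (fun y hy he => ?_) fun y _ => hf y
      · rw [Finset.mem_erase] at hy ⊢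
        exact ⟨fun h => hy.1 (by rw [← hf y, h, (hfix x₀).2 rfl]), hinvC _ _ hy.2⟩
      · exact (Finset.mem_erase.1 hy).1 ((hfix y).1 he)
    rw [hcard x x₀] at he
    rw [Finset.card_erase_of_mem hmem] at he'
    have hpos : 0 < (C x₀).card := Finset.card_pos.2 ⟨_, hmem⟩
    rw [Nat.even_iff] at he he'
    omega
  rw [eq_top_iff, ← Equiv.Perm.closure_isSwap, Subgroup.closure_le]
  rintro σ ⟨x, y, -, rfl⟩
  exact htrans x x₀ y (by rw [Equiv.swap_comm]; exact hall x) (hall y)

/-- A Hall `π`-subgroup of a symmetric group of `q`-power degree, `q ∈ π`, is transitive. -/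
theorem transitive_of_isPiHall {α : Type*} [Finite α] {H : Subgroup (Equiv.Perm α)}
    (hH : IsPiHall π H) {q f : ℕ} [Fact q.Prime] (hq : q ∈ π) (hcard : Nat.card α = q ^ f)
    (x y : α) : ∃ h ∈ H, h x = y := by
  obtain ⟨P, hP⟩ := exists_sylow_le_of_isPiHall hH hq
  haveI := PermGroups.isPretransitive_sylow_of_card_eq_prime_pow
    (G := Equiv.Perm α) (X := α) hcard P
  obtain ⟨h, hh⟩ := exists_smul_eq (P : Subgroup (Equiv.Perm α)) x y
  exact ⟨h, hP h.2, hh⟩

/-- If `2 ∈ π`, an odd prime is in `π` and some prime is not, some symmetric group fails `E_π`. -/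
theorem not_ePi_of_two_mem {q r : ℕ} (hq : q.Prime) (hq2 : q ≠ 2) (h2 : 2 ∈ π) (hqπ : q ∈ π)
    (hr : r.Prime) (hrπ : r ∉ π) : ¬ IsEPiGroup π (Equiv.Perm (Fin (q ^ r))) := by
  rintro ⟨H₀, hH₀⟩
  haveI : Fact q.Prime := ⟨hq⟩
  haveI : Fact (Nat.Prime 2) := ⟨Nat.prime_two⟩
  have hrn : r < q ^ r := Nat.lt_pow_self hq.one_lt
  have hodd : (q ^ r) % 2 = 1 := Nat.odd_iff.1 (Odd.pow (hq.odd_of_ne_two hq2))
  generalize hn : q ^ r = n at *
  let f : Fin n → Fin n := fun i =>
    ⟨if i.val + 1 = n then i.val else if i.val % 2 = 0 then i.val + 1 else i.val - 1, by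
      have := i.isLt
      split_ifs <;> omega⟩
  have hf : Function.Involutive f := fun i => Fin.ext (by
    have := i.isLt
    simp only [f]
    split_ifs <;> omega)
  have hfix : ∀ x, f x = x ↔ x = ⟨n - 1, by omega⟩ := fun i => by
    have := i.isLt
    simp only [f, Fin.ext_iff]
    split_ifs <;> omega
  obtain ⟨S, hS⟩ := (isPGroup_pairGroup f hf).exists_le_sylow
  obtain ⟨T, hT⟩ := exists_sylow_le_of_isPiHall hH₀ h2
  obtain ⟨g, hg⟩ := exists_smul_eq (Equiv.Perm (Fin n)) T S
  have hH := isPiHall_map_conj hH₀ g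
  have hle : pairGroup f hf ≤ H₀.map (MulAut.conj g).toMonoidHom := by
    refine hS.trans ?_
    rw [← hg]
    exact Subgroup.map_mono hT
  have htop := eq_top_of_pairing
    (fun x y => transitive_of_isPiHall hH hqπ (f := r) (by rw [Nat.card_fin, ← hn]) x y)
    f hf _ hfix hle
  apply hrπ
  refine hH.1 r hr ?_
  rw [htop, Subgroup.card_top, Nat.card_perm, Nat.card_fin]
  exact Nat.dvd_factorial hr.pos hrn.le

/-- If `2 ∉ π` contains two primes `p < q`, the symmetric group of degree `q` fails `E_π`. -/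
theorem not_ePi_of_two_not_mem {p q : ℕ} (hp : p.Prime) (hq : q.Prime) (hpq : p < q)
    (h2 : 2 ∉ π) (hpπ : p ∈ π) (hqπ : q ∈ π) : ¬ IsEPiGroup π (Equiv.Perm (Fin q)) := by
  rintro ⟨H, hH⟩
  haveI : Fact q.Prime := ⟨hq⟩
  have hX : Nat.card (Fin q) = q := Nat.card_fin q
  haveI : IsPretransitive H (Fin q) := ⟨fun x y => by
    obtain ⟨h, hh, e⟩ := transitive_of_isPiHall hH hqπ (f := 1) (by rw [pow_one, hX]) x y
    exact ⟨⟨h, hh⟩, e⟩⟩
  have hodd : ¬ 2 ∣ Nat.card H := fun h => h2 (hH.1 2 Nat.prime_two h)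
  by_cases hs : Group.IsSolvable H
  · obtain ⟨P⟩ : Nonempty (Sylow q H) := inferInstance
    obtain ⟨d, ⟨e, he⟩, hcard⟩ := PermGroups.exists_card_normalizer_sylow hX P
    haveI := PermGroups.sylow_normal_of_isSolvable hX hs P
    rw [Subgroup.normalizer_eq_top, Subgroup.card_top] at hcard
    have h1 := Subgroup.card_mul_index H
    rw [hcard, Nat.card_perm, hX] at h1
    obtain ⟨m, rfl⟩ : ∃ m, q = m + 2 := ⟨q - 2, by have := hq.two_le; omega⟩
    rw [Nat.factorial_succ, Nat.factorial_succ] at h1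
    have hd0 : 0 < d := Nat.pos_of_ne_zero (by rintro rfl; simp at he)
    have h3 : H.index = e * m.factorial := by
      have he' : m + 1 = d * e := by simpa using he
      have h4 : (m + 2) * (d * H.index) = (m + 2) * (d * (e * m.factorial)) := by
        rw [← mul_assoc d e, ← he']
        linarith [h1]
      exact Nat.eq_of_mul_eq_mul_left hd0 (Nat.eq_of_mul_eq_mul_left (by omega) h4)
    apply hH.2 p hp hpπ
    rw [h3]
    refine Dvd.dvd.mul_left (Nat.dvd_factorial hp.pos ?_) _
    have hp2 : p ≠ 2 := fun h => h2 (h ▸ hpπ)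
    have hq2 : m + 2 ≠ 2 := fun h => h2 (h ▸ hqπ)
    have h5 := Nat.odd_iff.1 (hp.odd_of_ne_two hp2)
    have h6 := Nat.odd_iff.1 (hq.odd_of_ne_two hq2)
    omega
  · haveI := PermGroups.burnside_two_transitive (G := H) (X := Fin q) (p := q)
      (Fintype.card_fin q) hs
    have h1 : (0 : ℕ) < q := hq.pos
    let a : Fin q := ⟨0, hq.pos⟩
    let b : Fin q := ⟨1, hq.one_lt⟩
    have hab : a ≠ b := by simp [a, b]
    obtain ⟨g, hga, hgb⟩ := is_two_pretransitive_iff.1 ‹_› hab hab.symm
    have hgodd : Odd (orderOf g) := by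
      rw [Nat.odd_iff]
      by_contra h
      exact hodd (dvd_trans (Nat.dvd_of_mod_eq_zero (by omega)) (orderOf_dvd_natCard g))
    obtain ⟨j, hj⟩ := hgodd
    have hst : g ^ 2 ∈ stabilizer H a := by
      rw [mem_stabilizer_iff, pow_two, mul_smul, hga, hgb]
    have h2' : (g ^ 2) ^ j • a = a := (stabilizer H a).pow_mem hst j
    apply hab
    calc a = g ^ orderOf g • a := by rw [pow_orderOf_eq_one, one_smul]
      _ = b := by rw [hj, pow_succ', pow_mul, mul_smul, h2', hga]

end CfsgLib.HallUniversal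

namespace CfsgLib.HallUniversal

/-- `E_π` in all finite groups forces `π` to be trivial. -/
theorem trivial_of_forall_ePi {π : Set ℕ}
    (h : ∀ (G : Type) [Group G] [Finite G], IsEPiGroup π G) :
    (∀ p q : ℕ, p.Prime → q.Prime → p ∈ π → q ∈ π → p = q) ∨ ∀ p : ℕ, p.Prime → p ∈ π := by
  by_contra hne
  simp only [not_or, not_forall, exists_prop] at hne
  obtain ⟨⟨p, q, hp, hq, hpπ, hqπ, hpq⟩, r, hr, hrπ⟩ := hne
  by_cases h2 : 2 ∈ π
  · by_cases hp2 : p = 2
    · exact not_ePi_of_two_mem hq (fun e => hpq (hp2.trans e.symm)) h2 hqπ hr hrπ (h _)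
    · exact not_ePi_of_two_mem hp hp2 h2 hpπ hr hrπ (h _)
  · rcases lt_or_gt_of_ne hpq with hlt | hlt
    · exact not_ePi_of_two_not_mem hp hq hlt h2 hpπ hqπ (h _)
    · exact not_ePi_of_two_not_mem hq hp hlt h2 hqπ hpπ (h _)

end CfsgLib.HallUniversal
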