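import Mathlib

/-!
Subgroups of the symmetric group of index equal to the degree.
-/

set_option autoImplicit false

namespace CfsgLib.Perm57

open MulAction Equiv

variable {Ω : Type*} [Fintype Ω] [DecidableEq Ω]

/-- For `k ≥ 2` swaps the centraliser is smaller than for one, except for `(n, k) = (6, 3)`. -/
theorem swap_count_ne {n k : ℕ} (hn : 5 ≤ n) (h6 : n ≠ 6) (hk : 2 ≤ k) (hkn : 2 * k ≤ n) :
    Nat.factorial (n - 2 * k) * 2 ^ k * Nat.factorial k ≠ Nat.factorial (n - 2) * 2 := by
  intro h
  have hlt : Nat.factorial (n - 2 * k) * 2 ^ k * Nat.factorial k < Nat.factorial (n - 2) * 2 := by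
    obtain ⟨m, rfl⟩ : ∃ m, n = 2 * k + m := ⟨n - 2 * k, by omega⟩
    have e1 : 2 * k + m - 2 * k = m := by omega
    rw [e1]
    have key : ∀ j, Nat.factorial (j + 4) * 2 ^ (j + 4) < 2 * Nat.factorial (2 * (j + 4) - 2) := by
      intro j
      induction j with
      | zero => decide
      | succ j ih =>
        have e : 2 * (j + 1 + 4) - 2 = 2 * (j + 4) - 2 + 1 + 1 := by omega
        rw [e, show j + 1 + 4 = j + 4 + 1 by omega,
          Nat.factorial_succ (j + 4), pow_succ]
        have h2 : 2 * (j + 4 + 1) ≤ (2 * (j + 4) - 2 + 1 + 1) * (2 * (j + 4) - 2 + 1) := by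
          have : 2 * (j + 4) - 2 + 1 + 1 = 2 * (j + 4) := by omega
          rw [this]
          have : 2 * (j + 4) - 2 + 1 ≥ 7 := by omega
          calc 2 * (j + 4 + 1) ≤ 2 * (j + 4) * 7 := by omega
            _ ≤ _ := Nat.mul_le_mul_left _ this
        calc (j + 4 + 1) * Nat.factorial (j + 4) * (2 ^ (j + 4) * 2)
            = 2 * (j + 4 + 1) * (Nat.factorial (j + 4) * 2 ^ (j + 4)) := by ring
          _ < 2 * (j + 4 + 1) * (2 * Nat.factorial (2 * (j + 4) - 2)) :=
              Nat.mul_lt_mul_of_pos_left ih (by positivity)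
          _ ≤ (2 * (j + 4) - 2 + 1 + 1) * (2 * (j + 4) - 2 + 1) *
              (2 * Nat.factorial (2 * (j + 4) - 2)) := Nat.mul_le_mul_right _ h2
          _ = _ := by
              rw [Nat.factorial_succ (2 * (j + 4) - 2 + 1), Nat.factorial_succ (2 * (j + 4) - 2)]
              ring
    rcases (by omega : k = 2 ∨ k = 3 ∨ 4 ≤ k) with rfl | rfl | hk4
    · obtain ⟨i, rfl⟩ : ∃ i, m = i + 1 := ⟨m - 1, by omega⟩
      rw [show 2 * 2 + (i + 1) - 2 = i + 1 + 1 + 1 by omega, Nat.factorial_succ (i + 1 + 1),
        Nat.factorial_succ (i + 1)]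
      have hp := Nat.factorial_pos (i + 1)
      show Nat.factorial (i + 1) * 4 * 2 < _
      have : 3 * 2 * Nat.factorial (i + 1) ≤
          (i + 1 + 1 + 1) * ((i + 1 + 1) * Nat.factorial (i + 1)) := by
        rw [← mul_assoc]
        exact Nat.mul_le_mul_right _ (Nat.mul_le_mul (by omega) (by omega))
      omega
    · obtain ⟨i, rfl⟩ : ∃ i, m = i + 1 := ⟨m - 1, by omega⟩
      rw [show 2 * 3 + (i + 1) - 2 = i + 1 + 1 + 1 + 1 + 1 by omega,
        Nat.factorial_succ (i + 1 + 1 + 1 + 1), Nat.factorial_succ (i + 1 + 1 + 1),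
        Nat.factorial_succ (i + 1 + 1), Nat.factorial_succ (i + 1)]
      have hp := Nat.factorial_pos (i + 1)
      show Nat.factorial (i + 1) * 8 * 6 < _
      have : 5 * (4 * (3 * (2 * Nat.factorial (i + 1)))) ≤ (i + 1 + 1 + 1 + 1 + 1) *
          ((i + 1 + 1 + 1 + 1) * ((i + 1 + 1 + 1) * ((i + 1 + 1) * Nat.factorial (i + 1)))) :=
        Nat.mul_le_mul (by omega) (Nat.mul_le_mul (by omega) (Nat.mul_le_mul (by omega)
          (Nat.mul_le_mul (by omega) le_rfl)))
      omega
    · obtain ⟨j, rfl⟩ : ∃ j, k = j + 4 := ⟨k - 4, by omega⟩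
      have h1 : Nat.factorial m * Nat.factorial (2 * (j + 4) - 2) ≤
          Nat.factorial (2 * (j + 4) + m - 2) := by
        have h := Nat.le_of_dvd (Nat.factorial_pos _)
          (Nat.factorial_mul_factorial_dvd_factorial_add m (2 * (j + 4) - 2))
        rwa [show m + (2 * (j + 4) - 2) = 2 * (j + 4) + m - 2 by omega] at h
      calc Nat.factorial m * 2 ^ (j + 4) * Nat.factorial (j + 4)
          = Nat.factorial m * (Nat.factorial (j + 4) * 2 ^ (j + 4)) := by ring
        _ < Nat.factorial m * (2 * Nat.factorial (2 * (j + 4) - 2)) :=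
            Nat.mul_lt_mul_of_pos_left (key j) (Nat.factorial_pos m)
        _ ≤ Nat.factorial (2 * (j + 4) + m - 2) * 2 := by rw [← mul_assoc, mul_comm _ 2, mul_assoc,
              mul_comm (Nat.factorial (2 * (j + 4) + m - 2)) 2]; exact Nat.mul_le_mul_left 2 h1
  omega

/-- An automorphism of a symmetric group of degree `≠ 6` maps transpositions to transpositions. -/
theorem isSwap_map (hn : 5 ≤ Fintype.card Ω) (h6 : Fintype.card Ω ≠ 6) (φ : Perm Ω ≃* Perm Ω)
    {τ : Perm Ω} (hτ : τ.IsSwap) : (φ τ).IsSwap := by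
  set σ := φ τ
  have hcard : Nat.card (Subgroup.centralizer {σ}) = Nat.card (Subgroup.centralizer {τ}) := by
    have : (Subgroup.centralizer {τ}).map φ.toMonoidHom = Subgroup.centralizer {σ} := by
      ext y
      obtain ⟨z, rfl⟩ := φ.surjective y
      rw [show φ z ∈ (Subgroup.centralizer {τ}).map φ.toMonoidHom ↔
          z ∈ Subgroup.centralizer {τ} from
          Subgroup.mem_map_iff_mem (f := φ.toMonoidHom) φ.injective,
        Subgroup.mem_centralizer_singleton_iff, Subgroup.mem_centralizer_singleton_iff]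
      show _ ↔ φ z * φ τ = φ τ * φ z
      rw [← map_mul, ← map_mul, φ.injective.eq_iff]
    rw [← this, Subgroup.card_map_of_injective φ.injective]
  haveI := Fact.mk Nat.prime_two
  have ho : orderOf σ = 2 := by rw [MulEquiv.orderOf_eq, hτ.orderOf]
  obtain ⟨k, hk⟩ := Perm.cycleType_prime_order (σ := σ) (ho.symm ▸ Nat.prime_two)
  rw [ho] at hk
  have hkn : 2 * (k + 1) ≤ Fintype.card Ω := by
    have h1 := σ.support.card_le_univ
    rw [← Perm.sum_cycleType, hk, Multiset.sum_replicate, smul_eq_mul] at h1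
    omega
  rw [Perm.nat_card_centralizer, Perm.nat_card_centralizer, hk,
    (Perm.isSwap_iff_cycleType.mp hτ)] at hcard
  simp only [Multiset.sum_replicate, Multiset.prod_replicate, smul_eq_mul, Multiset.sum_singleton,
    Multiset.prod_singleton, Multiset.toFinset_replicate, Nat.succ_ne_zero, if_false,
    Multiset.toFinset_singleton, Finset.prod_singleton, Multiset.count_replicate_self,
    Multiset.count_singleton_self, Nat.factorial_one, mul_one] at hcard
  rcases Nat.eq_zero_or_pos k with rfl | hkp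
  · exact Perm.isSwap_iff_cycleType.mpr hk
  · exfalso
    refine swap_count_ne hn h6 (show 2 ≤ k + 1 by omega) hkn ?_
    convert hcard using 2 <;> first | ring_nf | rfl

theorem card_le_of_invariant (H : Subgroup (Perm Ω)) (s : Finset Ω)
    (hs : ∀ h ∈ H, ∀ x, h x ∈ s ↔ x ∈ s) :
    Nat.card H ≤ Nat.factorial s.card * Nat.factorial (Fintype.card Ω - s.card) := by
  let f : H → Perm {x // x ∈ s} × Perm {x // x ∉ s} := fun h =>
    ((h : Perm Ω).subtypePerm (hs h h.2), (h : Perm Ω).subtypePerm (fun x => not_congr (hs h h.2 x)))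
  have hf : Function.Injective f := by
    intro g h hgh
    apply Subtype.ext
    ext x
    by_cases hx : x ∈ s
    · exact congrArg Subtype.val (Equiv.congr_fun (congrArg Prod.fst hgh) ⟨x, hx⟩)
    · exact congrArg Subtype.val (Equiv.congr_fun (congrArg Prod.snd hgh) ⟨x, hx⟩)
  refine (Nat.card_le_card_of_injective f hf).trans (le_of_eq ?_)
  rw [Nat.card_prod, Nat.card_perm, Nat.card_perm, Nat.card_eq_fintype_card,
    Nat.card_eq_fintype_card, Fintype.card_subtype_compl, Fintype.card_coe]

theorem choose_gt_self {n k : ℕ} (hn : 5 ≤ n) (hk : 2 ≤ k) (hkn : k + 2 ≤ n) : n < n.choose k := by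
  induction n generalizing k with
  | zero => omega
  | succ n ih =>
    obtain ⟨j, rfl⟩ : ∃ j, k = j + 1 := ⟨k - 1, by omega⟩
    rw [Nat.choose_succ_succ]
    rcases eq_or_lt_of_le (show 1 ≤ j by omega) with rfl | hj
    · simp only [Nat.choose_one_right, Nat.succ_eq_add_one, Nat.reduceAdd]
      have : 2 ≤ n.choose 2 := by
        have := Nat.choose_le_choose 2 (show 4 ≤ n by omega)
        norm_num [Nat.choose] at this ⊢
        omega
      omega
    · rcases eq_or_lt_of_le (show j + 3 ≤ n + 1 by omega) with h | h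
      · have hnj : n = j + 2 := by omega
        subst hnj
        rw [Nat.choose_succ_self_right]
        have : 2 ≤ (j + 2).choose j := by
          rw [← Nat.choose_symm (by omega), show j + 2 - j = 2 by omega]
          have := Nat.choose_le_choose 2 (show 4 ≤ j + 2 by omega)
          norm_num [Nat.choose] at this ⊢
          omega
        omega
      · rcases Nat.lt_or_ge n 5 with h5 | h5
        · omega
        · have := ih h5 (show 2 ≤ j by omega) (by omega)
          have h1 : 0 < n.choose (j + 1) := Nat.choose_pos (by omega)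
          simp only [Nat.succ_eq_add_one]
          omega

theorem eq_stabilizer_of_card (H : Subgroup (Perm Ω)) (x : Ω)
    (hle : H ≤ stabilizer (Perm Ω) x) (hH : H.index = Fintype.card Ω) :
    H = stabilizer (Perm Ω) x := by
  refine Subgroup.eq_of_le_of_card_ge hle (le_of_eq ?_)
  have h1 := H.card_mul_index
  have h2 := (stabilizer (Perm Ω) x).card_mul_index
  rw [index_stabilizer_of_transitive, Nat.card_eq_fintype_card (α := Ω)] at h2
  rw [hH, ← h2] at h1
  exact (Nat.eq_of_mul_eq_mul_right (Fintype.card_pos_iff.mpr ⟨x⟩) h1).symm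

theorem index_eq_degree_large (hn : 5 ≤ Fintype.card Ω) (h6 : Fintype.card Ω ≠ 6)
    (H : Subgroup (Perm Ω)) (hH : H.index = Fintype.card Ω) :
    ∃ x : Ω, H = stabilizer (Perm Ω) x := by
  classical
  haveI : Fintype (Perm Ω ⧸ H) := Fintype.ofFinite _
  have hq : Fintype.card (Perm Ω ⧸ H) = Fintype.card Ω := by
    rw [← Nat.card_eq_fintype_card]; exact hH
  obtain ⟨e⟩ := Fintype.card_eq.mp hq
  let φ : Perm Ω →* Perm Ω := e.permCongrHom.toMonoidHom.comp (toPermHom (Perm Ω) (Perm Ω ⧸ H))
  have hker : φ.ker = ⊥ := by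
    have hk : φ.ker = H.normalCore := by
      rw [H.normalCore_eq_ker]
      ext g
      simp only [MonoidHom.mem_ker, φ, MonoidHom.comp_apply]
      exact map_eq_one_iff _ e.permCongrHom.injective
    rw [hk]
    set K := H.normalCore
    have h4 : 5 ≤ Nat.card Ω := by rw [Nat.card_eq_fintype_card]; omega
    haveI : IsSimpleGroup (alternatingGroup Ω) := alternatingGroup.isSimpleGroup h4
    rcases (inferInstance : (K.subgroupOf (alternatingGroup Ω)).Normal).eq_bot_or_eq_top with h | h
    · rw [Subgroup.subgroupOf_eq_bot] at h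
      have hcard : Nat.card K ≤ 2 := by
        have hinj : Function.Injective (Perm.sign.comp K.subtype) := by
          rw [← MonoidHom.ker_eq_bot_iff, eq_bot_iff]
          intro k hk
          exact Subgroup.mem_bot.mpr (Subtype.ext (Subgroup.disjoint_def.mp h k.2 hk))
        have := Nat.card_le_card_of_injective _ hinj
        rwa [Nat.card_eq_fintype_card (α := ℤˣ), Fintype.card_units_int] at this
      by_contra hK
      obtain ⟨k, hkK, hk1⟩ := (Subgroup.bot_or_exists_ne_one K).resolve_left hK
      have hall : ∀ g : Perm Ω, g * k * g⁻¹ = k := by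
        intro g
        by_contra hne
        have hm : g * k * g⁻¹ ∈ K := (inferInstance : K.Normal).conj_mem k hkK g
        have h3 : 2 < Nat.card K := by
          rw [Nat.card_eq_fintype_card, Fintype.two_lt_card_iff]
          refine ⟨1, ⟨k, hkK⟩, ⟨_, hm⟩, fun h => hk1 (congrArg Subtype.val h).symm,
            fun h => hk1 ?_, fun h => hne (congrArg Subtype.val h).symm⟩
          exact conj_eq_one_iff.mp (congrArg Subtype.val h).symm
        omega
      obtain ⟨x, hx⟩ : ∃ x, k x ≠ x := by
        by_contra hh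
        push_neg at hh
        exact hk1 (Equiv.ext hh)
      obtain ⟨y, hyx, hykx⟩ : ∃ y, y ≠ x ∧ y ≠ k x := by
        have : (({x, k x} : Finset Ω))ᶜ.Nonempty := by
          rw [← Finset.card_pos, Finset.card_compl, Finset.card_pair (Ne.symm hx)]
          omega
        obtain ⟨y, hy⟩ := this
        simp only [Finset.mem_compl, Finset.mem_insert, Finset.mem_singleton, not_or] at hy
        exact ⟨y, hy⟩
      have := congrArg (fun f : Perm Ω => f x) (hall (Equiv.swap (k x) y))
      simp only [Perm.mul_apply, swap_inv] at this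
      rw [swap_apply_of_ne_of_ne (Ne.symm hx) hyx.symm, swap_apply_left] at this
      exact hykx this
    · exfalso
      rw [Subgroup.subgroupOf_eq_top] at h
      have h2 := Subgroup.index_dvd_of_le (h.trans H.normalCore_le)
      haveI : Nontrivial Ω := Fintype.one_lt_card_iff_nontrivial.mp (by omega)
      rw [hH, alternatingGroup.index_eq_two] at h2
      have := Nat.le_of_dvd two_pos h2
      omega
  have hinj : Function.Injective φ := (MonoidHom.ker_eq_bot_iff φ).mp hker
  let Φ : Perm Ω ≃* Perm Ω :=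
    MulEquiv.ofBijective φ ⟨hinj, Finite.surjective_of_injective hinj⟩
  set y := e ((1 : Perm Ω) : Perm Ω ⧸ H) with hy
  have hHy : ∀ g : Perm Ω, g ∈ H ↔ Φ g y = y := by
    intro g
    show g ∈ H ↔ e (g • (e.symm y)) = y
    rw [hy, e.symm_apply_apply, e.apply_eq_iff_eq, MulAction.Quotient.smul_coe, smul_eq_mul,
      mul_one, QuotientGroup.eq, mul_one, H.inv_mem_iff]
  set S : Set (Perm Ω) := {τ | τ.IsSwap ∧ τ ∈ H}
  have hgen : H = Subgroup.closure S := by
    refine le_antisymm ?_ ((Subgroup.closure_le H).mpr fun τ h => h.2)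
    intro g hg
    have hy' := (hHy g).mp hg
    obtain ⟨l, hl, hls⟩ : ∃ l : List (Perm Ω), l.prod = Φ g ∧
        ∀ τ ∈ l, τ.IsSwap ∧ τ y = y := by
      let h' : Perm {x // x ≠ y} := (Φ g).subtypePerm (fun x => by
        constructor
        · intro hx hxy; exact hx (by rw [hxy, hy'])
        · intro hx h; exact hx ((Φ g).injective (h.trans hy'.symm)))
      obtain ⟨l, hl, hls⟩ := (Perm.truncSwapFactors h').out
      refine ⟨l.map Perm.ofSubtype, ?_, ?_⟩
      · rw [← map_list_prod, hl]
        exact Perm.ofSubtype_subtypePerm _ (fun x hx hxy => hx (by rw [hxy, hy']))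
      · intro τ hτ
        obtain ⟨t, ht, rfl⟩ := List.mem_map.mp hτ
        exact ⟨(hls t ht).of_subtype_isSwap, Perm.ofSubtype_apply_of_not_mem t (by simp)⟩
    have : g = Φ.symm l.prod := by rw [hl, Φ.symm_apply_apply]
    rw [this, map_list_prod]
    refine Subgroup.list_prod_mem _ fun τ hτ => Subgroup.subset_closure ?_
    obtain ⟨t, ht, rfl⟩ := List.mem_map.mp hτ
    refine ⟨isSwap_map hn h6 Φ.symm (hls t ht).1, (hHy _).mpr ?_⟩
    rw [Φ.apply_symm_apply]
    exact (hls t ht).2
  have hnt : ¬ IsPretransitive H Ω := by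
    intro ht
    have htop : H = ⊤ := by
      rw [hgen] at ht ⊢
      exact closure_of_isSwap_of_isPretransitive fun σ hσ => hσ.1
    rw [htop, Subgroup.index_top] at hH
    omega
  haveI : Nonempty Ω := ⟨y⟩
  set s : Finset Ω := (MulAction.orbit H y).toFinset
  have hs : ∀ h ∈ H, ∀ x, h x ∈ s ↔ x ∈ s := by
    intro h hh x
    simp only [s, Set.mem_toFinset]
    constructor
    · rintro ⟨m, hm : m • y = h x⟩
      refine ⟨(⟨h, hh⟩ : H)⁻¹ * m, ?_⟩
      show ((⟨h, hh⟩ : H)⁻¹ * m) • y = x
      rw [mul_smul, hm]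
      exact inv_smul_smul (⟨h, hh⟩ : H) x
    · rintro ⟨m, rfl⟩
      exact ⟨(⟨h, hh⟩ : H) * m, mul_smul _ _ _⟩
  have hs0 : 1 ≤ s.card := Finset.card_pos.mpr ⟨y, by simp [s]⟩
  have hsn : s.card < Fintype.card Ω := by
    rw [Finset.card_lt_iff_ne_univ]
    intro hu
    apply hnt
    refine ⟨fun u v => ?_⟩
    have hmem : ∀ u, u ∈ orbit H y := fun u => by
      have := Finset.mem_univ u
      rw [← hu] at this
      simpa [s] using this
    obtain ⟨m, hm⟩ := hmem u
    obtain ⟨m', hm'⟩ := hmem v
    exact ⟨m' * m⁻¹, by rw [← hm, ← hm']; simp only; rw [← mul_smul, inv_mul_cancel_right]⟩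
  have hc := card_le_of_invariant H s hs
  have hHc : Nat.card H * Fintype.card Ω = Nat.factorial (Fintype.card Ω) := by
    have h := H.card_mul_index
    rwa [hH, Nat.card_perm, Nat.card_eq_fintype_card (α := Ω)] at h
  have hedge : s.card = 1 ∨ s.card + 1 = Fintype.card Ω := by
    by_contra hcon
    push_neg at hcon
    have := choose_gt_self hn (k := s.card) (by omega) (by omega)
    have h2 := Nat.choose_mul_factorial_mul_factorial hsn.le
    rw [← hHc, mul_assoc] at h2
    have h3 : (Fintype.card Ω).choose s.card * (Nat.factorial s.card *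
        Nat.factorial (Fintype.card Ω - s.card)) ≤ Fintype.card Ω *
        (Nat.factorial s.card * Nat.factorial (Fintype.card Ω - s.card)) := by
      rw [h2, mul_comm (Nat.card H)]
      exact Nat.mul_le_mul_left _ hc
    have := Nat.le_of_mul_le_mul_right h3 (by positivity)
    omega
  obtain ⟨x, hx⟩ : ∃ x, ∀ h ∈ H, h x = x := by
    rcases hedge with h1 | h1
    · obtain ⟨x, hx⟩ := Finset.card_eq_one.mp h1
      refine ⟨x, fun h hh => ?_⟩
      have := (hs h hh x).mpr (by rw [hx]; exact Finset.mem_singleton_self x)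
      rwa [hx, Finset.mem_singleton] at this
    · have h2 : sᶜ.card = 1 := by rw [Finset.card_compl]; omega
      obtain ⟨x, hx⟩ := Finset.card_eq_one.mp h2
      refine ⟨x, fun h hh => ?_⟩
      have hxs : x ∉ s := Finset.mem_compl.mp (hx ▸ Finset.mem_singleton_self x)
      have : h x ∈ sᶜ := Finset.mem_compl.mpr fun hm => hxs ((hs h hh x).mp hm)
      rwa [hx, Finset.mem_singleton] at this
  exact ⟨x, eq_stabilizer_of_card H x (fun h hh => hx h hh) hH⟩

theorem index_eq_degree (h6 : Fintype.card Ω ≠ 6) (H : Subgroup (Perm Ω))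
    (hH : H.index = Fintype.card Ω) : ∃ x : Ω, H = stabilizer (Perm Ω) x := by
  classical
  rcases Nat.lt_or_ge (Fintype.card Ω) 5 with h5 | h5
  · have hpos : 0 < Fintype.card Ω :=
      hH ▸ Nat.pos_of_ne_zero Subgroup.index_ne_zero_of_finite
    obtain ⟨x0⟩ := Fintype.card_pos_iff.mp hpos
    have hHc : Nat.card H = Nat.factorial (Fintype.card Ω - 1) := by
      have h1 := H.card_mul_index
      rw [hH, Nat.card_perm, Nat.card_eq_fintype_card (α := Ω),
        ← Nat.mul_factorial_pred hpos.ne', mul_comm (Fintype.card Ω)] at h1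
      exact Nat.eq_of_mul_eq_mul_right hpos h1
    rcases (by omega : Fintype.card Ω ≤ 2 ∨ Fintype.card Ω = 3 ∨ Fintype.card Ω = 4)
      with h2 | h34
    · refine ⟨x0, eq_stabilizer_of_card H x0 ?_ hH⟩
      have : Nat.card H = 1 := by
        rw [hHc]; interval_cases (Fintype.card Ω) <;> rfl
      rw [Subgroup.card_eq_one.mp this]
      exact bot_le
    -- an element of prime order `n - 1` with a single fixed point
    obtain ⟨p, hp, hpn, hpH, hidx⟩ : ∃ p : ℕ, p.Prime ∧ p + 1 = Fintype.card Ω ∧
        p ∣ Nat.card H ∧ Nat.card H ≤ 2 * p := by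
      rcases h34 with h | h <;> rw [hHc, h]
      · exact ⟨2, Nat.prime_two, rfl, by decide, by decide⟩
      · exact ⟨3, Nat.prime_three, rfl, by decide, by decide⟩
    haveI := Fact.mk hp
    obtain ⟨σ, hσ⟩ := exists_prime_orderOf_dvd_card' (G := H) p hpH
    have hsup : (σ : Perm Ω).support.card = p := by
      have ho : orderOf (σ : Perm Ω) = p := (Subgroup.orderOf_coe σ).trans hσ
      obtain ⟨k, hk⟩ := Perm.cycleType_prime_order (σ := (σ : Perm Ω)) (ho.symm ▸ hp)
      rw [ho] at hk
      have h1 := (σ : Perm Ω).support.card_le_univ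
      rw [← Perm.sum_cycleType, hk, Multiset.sum_replicate, smul_eq_mul] at h1 ⊢
      have h2 := hp.two_le
      rcases Nat.eq_zero_or_pos k with rfl | hk0
      · simp
      · have : 2 * p ≤ (k + 1) * p := Nat.mul_le_mul_right p (by omega)
        omega
    obtain ⟨x, hx⟩ := Finset.card_eq_one.mp
      (show (σ : Perm Ω).supportᶜ.card = 1 by rw [Finset.card_compl, hsup]; omega)
    have hfix : ∀ z, (σ : Perm Ω) z = z ↔ z = x := by
      intro z
      rw [← Finset.mem_singleton (a := x), ← hx, Finset.mem_compl, Perm.notMem_support]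
    have hnorm : (Subgroup.zpowers σ).Normal := by
      have h1 := (Subgroup.zpowers σ).card_mul_index
      rw [Nat.card_zpowers, hσ] at h1
      have hle : (Subgroup.zpowers σ).index ≤ 2 :=
        Nat.le_of_mul_le_mul_left (by rw [h1, mul_comm p 2]; exact hidx) hp.pos
      have hne : (Subgroup.zpowers σ).index ≠ 0 := Subgroup.index_ne_zero_of_finite
      rcases (by omega : (Subgroup.zpowers σ).index = 1 ∨ (Subgroup.zpowers σ).index = 2)
        with h | h
      · rw [Subgroup.index_eq_one.mp h]; infer_instance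
      · exact Subgroup.normal_of_index_eq_two h
    refine ⟨x, eq_stabilizer_of_card H x (fun h hh => ?_) hH⟩
    show h x = x
    apply (hfix (h x)).mp
    obtain ⟨m, hm⟩ := hnorm.conj_mem σ (Subgroup.mem_zpowers σ) (⟨h, hh⟩ : H)⁻¹
    have h1 : ((σ : Perm Ω) ^ m) x = x :=
      (Perm.zpow_apply_eq_self_of_apply_eq_self ((hfix x).mpr rfl) m)
    have h2 := congrArg (fun u : H => ((u : Perm Ω)) x) hm
    simp only [SubgroupClass.coe_zpow, h1, inv_inv, Subgroup.coe_mul, Subgroup.coe_inv,
      Perm.mul_apply] at h2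
    exact (Perm.eq_inv_iff_eq.mp h2).symm
  · exact index_eq_degree_large h5 h6 H hH

end CfsgLib.Perm57
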