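import Mathlib

/-!
A maximal subgroup of a maximal subgroup that is not second maximal.
-/

set_option autoImplicit false

namespace CfsgLib.Perm57

open MulAction Equiv
open scoped Pointwise

theorem exists_non_second_maximal (m : ℕ) (hm : 2 ≤ m) :
    ∃ M H K : Subgroup (Perm (Fin (2 * m))), IsCoatom M ∧ M.index = 2 * m ∧ H ≤ M ∧
      IsCoatom (H.subgroupOf M) ∧ IsCoatom K ∧ H ≤ K ∧ ¬ IsCoatom (H.subgroupOf K) := by
  classical
  set z : Fin (2 * m) := ⟨0, by omega⟩ with hz
  set A : Set (Fin (2 * m)) := {x | (x : ℕ) < m} with hA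
  set M : Subgroup (Perm (Fin (2 * m))) := stabilizer (Perm (Fin (2 * m))) z with hM
  set U : Subgroup (Perm (Fin (2 * m))) := stabilizer (Perm (Fin (2 * m))) A with hU
  set K' : Subgroup (Perm (Fin (2 * m))) :=
    stabilizer (Perm (Fin (2 * m))) ({A, Aᶜ} : Set (Set (Fin (2 * m)))) with hK'
  have hUK' : U ≤ K' := by
    intro g hg
    have h1 : g • A = A := hg
    show g • ({A, Aᶜ} : Set (Set (Fin (2 * m)))) = {A, Aᶜ}
    rw [Set.smul_set_insert, Set.smul_set_singleton, Set.smul_set_compl, h1]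
  have hrev : (Fin.revPerm : Perm (Fin (2 * m))) • A = Aᶜ := by
    ext x
    rw [Set.mem_smul_set_iff_inv_smul_mem]
    show ((Fin.revPerm : Perm (Fin (2 * m)))⁻¹ x : Fin (2 * m)).val < m ↔ ¬ (x : ℕ) < m
    simp only [Perm.inv_def, Fin.revPerm_symm, Fin.revPerm_apply, Fin.val_rev]
    omega
  have hrevK : (Fin.revPerm : Perm (Fin (2 * m))) ∈ K' := by
    show (Fin.revPerm : Perm (Fin (2 * m))) • ({A, Aᶜ} : Set (Set (Fin (2 * m)))) = {A, Aᶜ}
    rw [Set.smul_set_insert, Set.smul_set_singleton, Set.smul_set_compl, hrev, compl_compl,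
      Set.pair_comm]
  have hrevU : (Fin.revPerm : Perm (Fin (2 * m))) ∉ U := by
    intro h
    have h1 : Aᶜ = A := hrev.symm.trans h
    have h2 : z ∈ A := by show (0 : ℕ) < m; omega
    exact absurd (h1.symm ▸ h2 : z ∈ Aᶜ) (not_not.mpr h2)
  have hK'top : K' ≠ ⊤ := by
    intro h
    set w : Fin (2 * m) := ⟨m, by omega⟩
    set o : Fin (2 * m) := ⟨1, by omega⟩
    have hg : swap z w ∈ K' := h ▸ Subgroup.mem_top _
    have h1 : swap z w • ({A, Aᶜ} : Set (Set (Fin (2 * m)))) = {A, Aᶜ} := hg
    have h2 : swap z w • A ∈ ({A, Aᶜ} : Set (Set (Fin (2 * m)))) :=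
      h1 ▸ Set.smul_mem_smul_set (Set.mem_insert _ _)
    have hw : w ∈ swap z w • A := ⟨z, by show (0 : ℕ) < m; omega, swap_apply_left z w⟩
    have ho : o ∈ swap z w • A := by
      refine ⟨o, by show (1 : ℕ) < m; omega, swap_apply_of_ne_of_ne ?_ ?_⟩
      · simp [o, z, Fin.ext_iff]
      · simp only [o, w, ne_eq, Fin.ext_iff]; omega
    rcases h2 with h2 | h2
    · rw [h2] at hw
      exact lt_irrefl m hw
    · rw [Set.mem_singleton_iff] at h2
      rw [h2] at ho
      exact ho (show (1 : ℕ) < m by omega)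
  obtain ⟨K, hK, hK'K⟩ := (eq_top_or_exists_le_coatom K').resolve_left hK'top
  refine ⟨M, M ⊓ U, K, ?_, ?_, inf_le_left, ?_, hK, inf_le_right.trans (hUK'.trans hK'K), ?_⟩
  · have h1 := Perm.isCoatom_stabilizer (s := ({z} : Set (Fin (2 * m)))) (Set.singleton_nonempty z)
      ⟨⟨1, by omega⟩, by simp [hz, Fin.ext_iff]⟩
      (by rw [Set.ncard_singleton, Nat.card_eq_fintype_card, Fintype.card_fin]; omega)
    rwa [stabilizer_singleton] at h1
  · rw [hM, index_stabilizer_of_transitive, Nat.card_eq_fintype_card, Fintype.card_fin]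
  · let e : M ≃* Perm {x : Fin (2 * m) // x ≠ z} :=
      { toFun := fun g => (g : Perm (Fin (2 * m))).subtypePerm (fun x => by
          have hgz : (g : Perm (Fin (2 * m))) z = z := g.2
          rw [ne_eq, ne_eq, ← not_iff_not, not_not, not_not]
          exact ⟨fun h => (g : Perm (Fin (2 * m))).injective (h.trans hgz.symm),
            fun h => by rw [h, hgz]⟩)
        invFun := fun f => ⟨Perm.ofSubtype f, Perm.ofSubtype_apply_of_not_mem f (by simp)⟩
        left_inv := fun g => Subtype.ext (Perm.ofSubtype_subtypePerm _ (fun x hx h => hx (by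
          have hgz : (g : Perm (Fin (2 * m))) z = z := g.2
          rw [h, hgz])))
        right_inv := fun f => Perm.subtypePerm_ofSubtype f
        map_mul' := fun g h => Equiv.ext fun x => rfl }
    set A' : Set {x : Fin (2 * m) // x ≠ z} := {x | ((x : Fin (2 * m)) : ℕ) < m}
    have hmap : ((M ⊓ U).subgroupOf M).map e.toMonoidHom =
        stabilizer (Perm {x : Fin (2 * m) // x ≠ z}) A' := by
      ext f
      rw [Subgroup.map_equiv_eq_comap_symm']
      show ((e.symm f : M) : Perm (Fin (2 * m))) ∈ M ⊓ U ↔ _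
      have hz0 : Perm.ofSubtype f z = z := Perm.ofSubtype_apply_of_not_mem f (by simp)
      show Perm.ofSubtype f ∈ M ⊓ U ↔ _
      rw [Subgroup.mem_inf, and_iff_right (show Perm.ofSubtype f ∈ M from hz0), hU,
        mem_stabilizer_set, mem_stabilizer_set]
      constructor
      · intro h x
        have h1 := h (x : Fin (2 * m))
        rwa [Perm.smul_def, Perm.ofSubtype_apply_of_mem f x.2] at h1
      · intro h x
        by_cases hx : x = z
        · subst hx
          rw [Perm.smul_def, hz0]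
        · rw [Perm.smul_def, Perm.ofSubtype_apply_of_mem f hx]
          exact h ⟨x, hx⟩
    have h1 : IsCoatom (stabilizer (Perm {x : Fin (2 * m) // x ≠ z}) A') := by
      refine Perm.isCoatom_stabilizer ⟨⟨⟨1, by omega⟩, by simp [hz, Fin.ext_iff]⟩,
        show (1 : ℕ) < m by omega⟩ ⟨⟨⟨m, by omega⟩, by simp [hz, Fin.ext_iff]; omega⟩,
        show ¬ (m : ℕ) < m from lt_irrefl m⟩ ?_
      rw [Nat.card_eq_fintype_card, Fintype.card_subtype_compl, Fintype.card_fin,
        Fintype.card_subtype_eq]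
      omega
    rw [← hmap] at h1
    exact (e.mapSubgroup.isCoatom_iff _).mp h1
  · intro h
    have hUK : U ≤ K := hUK'.trans hK'K
    have hlt : (M ⊓ U).subgroupOf K < U.subgroupOf K := by
      refine lt_of_le_of_ne (fun x hx => hx.2) fun he => ?_
      set o : Fin (2 * m) := ⟨1, by omega⟩
      have ho : swap z o ∈ U := by
        show swap z o • A = A
        apply (mem_stabilizer_set).mpr
        intro x
        rw [Perm.smul_def]
        show ((swap z o x : Fin (2 * m)) : ℕ) < m ↔ (x : ℕ) < m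
        rcases eq_or_ne x z with rfl | hxz
        · rw [swap_apply_left]; simp [o, hz]; omega
        rcases eq_or_ne x o with rfl | hxo
        · rw [swap_apply_right]; simp [o, hz]; omega
        rw [swap_apply_of_ne_of_ne hxz hxo]
      have h2 : (⟨swap z o, hUK ho⟩ : K) ∈ (M ⊓ U).subgroupOf K := he ▸ ho
      have h3 : swap z o z = z := h2.1
      rw [swap_apply_left] at h3
      simp [o, hz, Fin.ext_iff] at h3
    have h4 := Subgroup.subgroupOf_eq_top.mp (h.2 _ hlt)
    exact hrevU (h4 (hK'K hrevK))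

end CfsgLib.Perm57
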