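import Mathlib
import Cfsg.Agent.SmallPerm.DegreeSix

/-!
Centraliser of a transitive group, the one-point extension criterion, three transpositions,
elements of order three of a sharply triply transitive group.
-/

set_option autoImplicit false

namespace CfsgLib.Perm57

open MulAction

/-! ### Centraliser of a transitive group -/

section centralizer

variable {α : Type*} [Finite α] (G : Subgroup (Equiv.Perm α)) [IsPretransitive G α] (a : α)

theorem exists_centralizing_perm (b : α) (hb : stabilizer G a ≤ stabilizer G b) :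
    ∃ c ∈ Subgroup.centralizer (G : Set (Equiv.Perm α)), c a = b := by
  classical
  have h : ∀ x : α, ∃ g : G, g • a = x := exists_smul_eq G a
  choose s hs using h
  have key : ∀ g : G, s (g • a) • b = g • b := by
    intro g
    have h1 : g⁻¹ * s (g • a) ∈ stabilizer G a := by
      rw [mem_stabilizer_iff, mul_smul, hs, inv_smul_smul]
    have h2 := mem_stabilizer_iff.mp (hb h1)
    rw [mul_smul, inv_smul_eq_iff] at h2
    exact h2
  let f : α → α := fun x => s x • b
  have hsurj : Function.Surjective f := by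
    intro y
    obtain ⟨g, hg⟩ := exists_smul_eq G b y
    exact ⟨g • a, (key g).trans hg⟩
  refine ⟨Equiv.ofBijective f (Finite.surjective_iff_bijective.mp hsurj), ?_, ?_⟩
  · rw [Subgroup.mem_centralizer_iff]
    intro g hg
    ext x
    show g (f x) = f (g x)
    obtain ⟨k, rfl⟩ := exists_smul_eq G a x
    show (⟨g, hg⟩ : G) • s (k • a) • b = s ((⟨g, hg⟩ : G) • k • a) • b
    rw [key, ← mul_smul, ← mul_smul, key]
  · show f a = b
    have := key 1
    rwa [one_smul, one_smul] at this

theorem centralizer_orbit :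
    orbit (Subgroup.centralizer (G : Set (Equiv.Perm α))) a = fixedPoints (stabilizer G a) α := by
  ext b
  constructor
  · rintro ⟨c, rfl⟩ h
    have hc := Subgroup.mem_centralizer_iff.mp c.2 _ (h : G).2
    show ((h : G) : Equiv.Perm α) ((c : Equiv.Perm α) a) = (c : Equiv.Perm α) a
    have h1 : ((h : G) : Equiv.Perm α) a = a := h.2
    calc ((h : G) : Equiv.Perm α) ((c : Equiv.Perm α) a)
        = (((h : G) : Equiv.Perm α) * c) a := rfl
      _ = ((c : Equiv.Perm α) * (h : G)) a := by rw [hc]
      _ = (c : Equiv.Perm α) (((h : G) : Equiv.Perm α) a) := rfl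
      _ = (c : Equiv.Perm α) a := by rw [h1]
  · intro hb
    obtain ⟨c, hc, hca⟩ := exists_centralizing_perm G a b (fun h hh => hb ⟨h, hh⟩)
    exact ⟨⟨c, hc⟩, hca⟩

theorem centralizer_iso :
    Nonempty (Subgroup.centralizer (G : Set (Equiv.Perm α)) ≃*
      Subgroup.normalizer ((stabilizer G a : Subgroup G) : Set G) ⧸
        (stabilizer G a).subgroupOf
          (Subgroup.normalizer ((stabilizer G a : Subgroup G) : Set G))) := by
  classical
  set C := Subgroup.centralizer (G : Set (Equiv.Perm α))
  set N := Subgroup.normalizer ((stabilizer G a : Subgroup G) : Set G)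
  haveI hn : ((stabilizer G a).subgroupOf N).Normal :=
    (Subgroup.normal_subgroupOf_iff_le_normalizer Subgroup.le_normalizer).mpr le_rfl
  have hcomm : ∀ (c : C) (g : G) (x : α),
      g • (c : Equiv.Perm α) x = (c : Equiv.Perm α) (g • x) := fun c g x => by
    have hc := Subgroup.mem_centralizer_iff.mp c.2 _ g.2
    exact congrArg (fun f : Equiv.Perm α => f x) hc
  have hex : ∀ c : C, ∃ n : N, (n : G) • (c : Equiv.Perm α) a = a := by
    intro c
    obtain ⟨g, hg⟩ := exists_smul_eq G ((c : Equiv.Perm α) a) a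
    refine ⟨⟨g, ?_⟩, hg⟩
    have hstab : stabilizer G ((c : Equiv.Perm α) a) = stabilizer G a := by
      ext h
      rw [mem_stabilizer_iff, mem_stabilizer_iff, hcomm, (c : Equiv.Perm α).apply_eq_iff_eq]
    rw [Subgroup.mem_normalizer_iff]
    intro x
    show x ∈ stabilizer G a ↔ g * x * g⁻¹ ∈ stabilizer G a
    have hga : g⁻¹ • a = (c : Equiv.Perm α) a := by rw [inv_smul_eq_iff, hg]
    have hiff : (g * x * g⁻¹) • a = a ↔ x • (c : Equiv.Perm α) a = (c : Equiv.Perm α) a := by
      rw [mul_smul, mul_smul, hga]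
      conv_lhs => rhs; rw [← hg]
      exact smul_left_cancel_iff g
    rw [mem_stabilizer_iff (g := g * x * g⁻¹), hiff, ← mem_stabilizer_iff, hstab]
  choose ν hν using hex
  let φ : C →* N ⧸ (stabilizer G a).subgroupOf N :=
    MonoidHom.mk' (fun c => ((ν c : N) : N ⧸ (stabilizer G a).subgroupOf N)) (by
      intro c d
      rw [← QuotientGroup.mk_mul, QuotientGroup.eq_iff_div_mem, Subgroup.mem_subgroupOf,
        mem_stabilizer_iff, div_eq_mul_inv]
      push_cast
      have key : ((ν c : G) * (ν d : G))⁻¹ • a = ((c * d : C) : Equiv.Perm α) a := by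
        rw [inv_smul_eq_iff, mul_smul]
        show a = (ν c : G) • (ν d : G) • (c : Equiv.Perm α) ((d : Equiv.Perm α) a)
        rw [hcomm c (ν d : G), hν d, hν c]
      rw [mul_smul, key]
      exact hν (c * d))
  refine ⟨MulEquiv.ofBijective φ ⟨(injective_iff_map_eq_one φ).mpr fun c hc => ?_, ?_⟩⟩
  · have h1 : (ν c : G) • a = a := by
      have := (QuotientGroup.eq_one_iff (N := (stabilizer G a).subgroupOf N) (ν c)).mp hc
      exact this
    have hca : (c : Equiv.Perm α) a = a := by
      have h2 := hν c
      conv_rhs at h2 => rw [← h1]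
      exact smul_left_cancel _ h2
    apply Subtype.ext
    ext x
    obtain ⟨g, rfl⟩ := exists_smul_eq G a x
    show (c : Equiv.Perm α) (g • a) = g • a
    rw [← hcomm, hca]
  · intro q
    obtain ⟨n, rfl⟩ := QuotientGroup.mk_surjective q
    obtain ⟨c, hc, hca⟩ := exists_centralizing_perm G a ((n : G)⁻¹ • a) (fun h hh => by
      have h1 := (Subgroup.mem_normalizer_iff.mp n.2 h).mp hh
      rw [mem_stabilizer_iff, mul_smul, mul_smul] at h1
      rw [mem_stabilizer_iff]
      exact (eq_inv_smul_iff).mpr h1)
    refine ⟨⟨c, hc⟩, ?_⟩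
    show ((ν ⟨c, hc⟩ : N) : N ⧸ (stabilizer G a).subgroupOf N) = (n : N ⧸ _)
    rw [QuotientGroup.eq_iff_div_mem, Subgroup.mem_subgroupOf, mem_stabilizer_iff, div_eq_mul_inv]
    push_cast
    rw [mul_smul, ← hca]
    exact hν ⟨c, hc⟩

end centralizer

/-! ### One-point extensions -/

section extension

variable {X : Type*}

theorem one_point_extension (G : Subgroup (Equiv.Perm (Option X)))
    (hfix : ∀ f ∈ G, f none = none)
    (k : ℕ) (hk : 2 ≤ k) (hkX : Nonempty (Fin k ↪ X))
    (htrans : ∀ a b : Fin k ↪ X, ∃ f ∈ G, ∀ i, f (some (a i)) = some (b i))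
    (h g : Equiv.Perm (Option X)) (hg : g ∈ G) (x y : X)
    (h1 : h none = some x) (h2 : h (some x) = none) (h3 : h (some y) = some y)
    (h4 : g (some x) = some y) (h5 : g (some y) = some x)
    (h6 : (g * h) ^ 3 ∈ G) (h7 : h ^ 2 ∈ G)
    (h8 : ∀ f ∈ G, f (some x) = some x → h * f * h ∈ G ∧ (h * f * h) (some x) = some x) :
    (∀ f ∈ Subgroup.closure ((G : Set (Equiv.Perm (Option X))) ∪ {h}), f none = none ↔ f ∈ G) ∧
      MulAction.IsMultiplyPretransitive
        (Subgroup.closure ((G : Set (Equiv.Perm (Option X))) ∪ {h})) (Option X) (k + 1) := by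
  classical
  have hxy : x ≠ y := by
    rintro rfl
    rw [h3] at h2
    simp at h2
  have two : ∀ u v : X, ∀ (w : X), u ≠ w → v ≠ w →
      ∃ f ∈ G, f (some w) = some w ∧ f (some u) = some v := by
    intro u v w hu hv
    obtain ⟨e⟩ := hkX
    set i0 : Fin k := ⟨0, by omega⟩
    set i1 : Fin k := ⟨1, by omega⟩
    have h01 : i0 ≠ i1 := by simp [i0, i1]
    have emb : ∀ t : X, t ≠ w → ∃ a : Fin k ↪ X, a i0 = w ∧ a i1 = t := fun t ht => by
      let e0 := e.trans (Equiv.swap (e i0) w).toEmbedding
      have he0 : e0 i0 = w := by simp [e0]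
      refine ⟨e0.trans (Equiv.swap (e0 i1) t).toEmbedding, ?_, by simp⟩
      simp only [Function.Embedding.trans_apply, Equiv.coe_toEmbedding, he0]
      exact Equiv.swap_apply_of_ne_of_ne
        (fun hh => h01 (e0.injective (he0.trans hh))) ht.symm
    obtain ⟨a, ha0, ha1⟩ := emb u hu
    obtain ⟨b, hb0, hb1⟩ := emb v hv
    obtain ⟨f, hf, hfab⟩ := htrans a b
    exact ⟨f, hf, by simpa [ha0, hb0] using hfab i0, by simpa [ha1, hb1] using hfab i1⟩
  set S : Set (Equiv.Perm (Option X)) := {f | f ∈ G ∨ ∃ a ∈ G, ∃ b ∈ G, f = a * h * b} with hS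
  have hinvh : h⁻¹ = (h ^ 2)⁻¹ * h := by rw [pow_two]; group
  have hGS : ∀ a ∈ G, ∀ f ∈ S, a * f ∈ S := by
    rintro a ha f (hf | ⟨b, hb, c, hc, rfl⟩)
    · exact Or.inl (G.mul_mem ha hf)
    · exact Or.inr ⟨a * b, G.mul_mem ha hb, c, hc, by group⟩
  have hSG : ∀ a ∈ G, ∀ f ∈ S, f * a ∈ S := by
    rintro a ha f (hf | ⟨b, hb, c, hc, rfl⟩)
    · exact Or.inl (G.mul_mem hf ha)
    · exact Or.inr ⟨b, hb, c * a, G.mul_mem hc ha, by group⟩
  have hghS : h⁻¹ * g * h⁻¹ ∈ S := by
    have e : h * g * h = g⁻¹ * ((g * h) ^ 3) * (h⁻¹ * g⁻¹) := by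
      simp only [pow_succ, pow_zero, one_mul]; group
    have : h * g * h ∈ S := by
      rw [e]
      refine Or.inr ⟨g⁻¹ * (g * h) ^ 3 * (h ^ 2)⁻¹, G.mul_mem (G.mul_mem (G.inv_mem hg) h6)
        (G.inv_mem h7), g⁻¹, G.inv_mem hg, ?_⟩
      rw [hinvh]; group
    have e2 : h⁻¹ * g * h⁻¹ = (h ^ 2)⁻¹ * (h * g * h) * (h ^ 2)⁻¹ := by
      rw [pow_two]; group
    rw [e2]
    exact hSG _ (G.inv_mem h7) _ (hGS _ (G.inv_mem h7) _ this)
  have hmid : ∀ f ∈ G, h * f * h ∈ S := by
    intro f hf
    by_cases hx : f (some x) = some x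
    · exact Or.inl (h8 f hf hx).1
    · obtain ⟨z, hz⟩ : ∃ z, f (some x) = some z := by
        cases hh : f (some x) with
        | none => exact absurd (f.injective (hh.trans (hfix f hf).symm)) (by simp)
        | some z => exact ⟨z, rfl⟩
      obtain ⟨f1, hf1, hf1x, hf1y⟩ := two y z x hxy.symm (fun hzx => hx (hzx ▸ hz))
      have hf2x : (g⁻¹ * f1⁻¹ * f) (some x) = some x := by
        show g⁻¹ (f1⁻¹ (f (some x))) = some x
        have a1 : f1⁻¹ (some z) = some y := by rw [Equiv.Perm.inv_eq_iff_eq, hf1y]
        have a2 : g⁻¹ (some y) = some x := by rw [Equiv.Perm.inv_eq_iff_eq, h4]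
        rw [hz, a1, a2]
      have hA := (h8 f1 hf1 hf1x).1
      have hB := (h8 _ (G.mul_mem (G.mul_mem (G.inv_mem hg) (G.inv_mem hf1)) hf) hf2x).1
      have e : h * f * h = (h * f1 * h) * (h⁻¹ * g * h⁻¹) * (h * (g⁻¹ * f1⁻¹ * f) * h) := by
        group
      rw [e]
      exact hSG _ hB _ (hGS _ hA _ hghS)
  have hmul : ∀ u ∈ S, ∀ v ∈ S, u * v ∈ S := by
    intro u hu v hv
    rcases hu with hu | ⟨a, ha, b, hb, rfl⟩
    · exact hGS u hu v hv
    · rcases hv with hv | ⟨c, hc, d, hd, rfl⟩
      · exact hSG v hv _ (Or.inr ⟨a, ha, b, hb, rfl⟩)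
      · have e : a * h * b * (c * h * d) = a * (h * (b * c) * h) * d := by group
        rw [e]
        exact hSG _ hd _ (hGS _ ha _ (hmid _ (G.mul_mem hb hc)))
  let E : Subgroup (Equiv.Perm (Option X)) :=
    { carrier := S
      one_mem' := Or.inl G.one_mem
      mul_mem' := fun hu hv => hmul _ hu _ hv
      inv_mem' := fun {u} hu => by
        rcases hu with hu | ⟨a, ha, b, hb, rfl⟩
        · exact Or.inl (G.inv_mem hu)
        · refine Or.inr ⟨b⁻¹ * (h ^ 2)⁻¹, G.mul_mem (G.inv_mem hb) (G.inv_mem h7), a⁻¹,
            G.inv_mem ha, ?_⟩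
          rw [mul_inv_rev, mul_inv_rev, hinvh]; group }
  have hE : Subgroup.closure ((G : Set (Equiv.Perm (Option X))) ∪ {h}) ≤ E :=
    (Subgroup.closure_le E).mpr (Set.union_subset (fun f hf => Or.inl hf)
      (Set.singleton_subset_iff.mpr (Or.inr ⟨1, G.one_mem, 1, G.one_mem, by group⟩)))
  constructor
  · intro f hf
    refine ⟨fun hn => ?_, hfix f⟩
    rcases hE hf with hf' | ⟨a, ha, b, hb, rfl⟩
    · exact hf'
    · exfalso
      have : a (h (b none)) = none := hn
      rw [hfix b hb, h1] at this
      exact absurd (a.injective (this.trans (hfix a ha).symm)) (by simp)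
  set K := Subgroup.closure ((G : Set (Equiv.Perm (Option X))) ∪ {h})
  have hGK : G ≤ K := fun f hf => Subgroup.subset_closure (Or.inl hf)
  have hhK : h ∈ K := Subgroup.subset_closure (Or.inr rfl)
  have htonone : ∀ z : Option X, ∃ e ∈ K, e z = none := by
    rintro (_ | z)
    · exact ⟨1, K.one_mem, rfl⟩
    · obtain ⟨f, hf, hfz⟩ : ∃ f ∈ G, f (some z) = some x := by
        obtain ⟨e⟩ := hkX
        obtain ⟨f, hf, hfab⟩ := htrans (e.trans (Equiv.swap (e ⟨0, by omega⟩) z).toEmbedding)
          (e.trans (Equiv.swap (e ⟨0, by omega⟩) x).toEmbedding)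
        exact ⟨f, hf, by simpa using hfab ⟨0, by omega⟩⟩
      exact ⟨h * f, K.mul_mem hhK (hGK hf), by show h (f (some z)) = none; rw [hfz, h2]⟩
  rw [MulAction.isMultiplyPretransitive_iff]
  intro u v
  obtain ⟨e1, he1, he1u⟩ := htonone (u 0)
  obtain ⟨e2, he2, he2v⟩ := htonone (v 0)
  have tail : ∀ (w : Fin (k + 1) ↪ Option X) (e : Equiv.Perm (Option X)), e (w 0) = none →
      ∃ a : Fin k ↪ X, ∀ i : Fin k, e (w i.succ) = some (a i) := by
    intro w e he
    have hne : ∀ i : Fin k, (e (w i.succ)).isSome := fun i => by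
      rw [Option.isSome_iff_ne_none]
      intro hc
      exact Fin.succ_ne_zero i (w.injective (e.injective (hc.trans he.symm)))
    refine ⟨⟨fun i => (e (w i.succ)).get (hne i), fun i j hij => ?_⟩, fun i => (Option.some_get _).symm⟩
    exact Fin.succ_injective _ (w.injective (e.injective (Option.get_inj.mp hij)))
  obtain ⟨a, ha⟩ := tail u e1 he1u
  obtain ⟨b, hb⟩ := tail v e2 he2v
  obtain ⟨f, hf, hfab⟩ := htrans a b
  refine ⟨⟨e2⁻¹ * (f * e1), K.mul_mem (K.inv_mem he2) (K.mul_mem (hGK hf) he1)⟩, ?_⟩
  ext i : 1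
  show e2⁻¹ (f (e1 (u i))) = v i
  rw [Equiv.Perm.inv_eq_iff_eq]
  refine Fin.cases ?_ (fun i => ?_) i
  · rw [he1u, he2v, hfix f hf]
  · rw [ha, hb, hfab]

end extension

/-! ### Three transpositions -/

section transpositions

variable {α : Type*} [Fintype α] [DecidableEq α]

theorem isSolvable_of_support_le_four (T : Finset α) (hT : T.card ≤ 4)
    (S : Set (Equiv.Perm α)) (hS : ∀ f ∈ S, f.support ⊆ T) :
    Group.IsSolvable (Subgroup.closure S) := by
  have hsolv : Group.IsSolvable (Equiv.Perm {x // x ∈ T}) := by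
    obtain ⟨e⟩ : Nonempty ({x // x ∈ T} ↪ Fin 4) :=
      Function.Embedding.nonempty_of_card_le (by simpa using hT)
    have h4 : Group.IsSolvable (Equiv.Perm (Fin 4)) :=
      CfsgLib.SmallPerm.isSolvable_of_two_primes _ 2 3 3 1 Nat.prime_two (by norm_num)
        (by rw [Nat.card_perm, Nat.card_eq_fintype_card, Fintype.card_fin]; rfl)
    exact Group.isSolvable_of_isSolvable_injective (f := Equiv.Perm.viaEmbeddingHom e)
      (Equiv.Perm.viaEmbeddingHom_injective e)
  have hle : Subgroup.closure S ≤ (Equiv.Perm.ofSubtype (p := fun x => x ∈ T)).range := by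
    rw [Subgroup.closure_le]
    intro f hf
    have h1 : ∀ x, f x ∈ T ↔ x ∈ T := fun x => by
      by_cases hx : f x = x
      · rw [hx]
      · have hxm := hS f hf (Equiv.Perm.mem_support.mpr hx)
        have hfm := hS f hf (Equiv.Perm.apply_mem_support.mpr (Equiv.Perm.mem_support.mpr hx))
        exact iff_of_true hfm hxm
    exact ⟨f.subtypePerm h1, Equiv.Perm.ofSubtype_subtypePerm h1
      fun x hx => hS f hf (Equiv.Perm.mem_support.mpr hx)⟩
  haveI := hsolv
  have : Group.IsSolvable (Equiv.Perm.ofSubtype (p := fun x => x ∈ T)).range :=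
    Group.isSolvable_of_surjective (MonoidHom.rangeRestrict_surjective _)
  exact Group.isSolvable_of_isSolvable_injective (f := Subgroup.inclusion hle)
    (Subgroup.inclusion_injective hle)

theorem isSolvable_closure_of_disjoint (a b c : Equiv.Perm α) (ha : a.IsSwap) (hb : b.IsSwap)
    (hc : c.IsSwap) (h1 : Disjoint a.support b.support) (h2 : Disjoint a.support c.support) :
    Group.IsSolvable (Subgroup.closure ({a, b, c} : Set (Equiv.Perm α))) := by
  set B := Subgroup.closure ({b, c} : Set (Equiv.Perm α))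
  haveI : Group.IsSolvable B := by
    refine isSolvable_of_support_le_four (b.support ∪ c.support) ?_ _ ?_
    · have := Finset.card_union_le b.support c.support
      rw [Equiv.Perm.card_support_eq_two.mpr hb, Equiv.Perm.card_support_eq_two.mpr hc] at this
      omega
    · rintro f (rfl | rfl)
      · exact Finset.subset_union_left
      · exact Finset.subset_union_right
  have hBc : B ≤ Subgroup.centralizer {a} := by
    rw [Subgroup.closure_le]
    rintro f (rfl | rfl)
    · rw [SetLike.mem_coe, Subgroup.mem_centralizer_singleton_iff]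
      exact (Equiv.Perm.disjoint_iff_disjoint_support.mpr h1).commute.symm.eq
    · rw [SetLike.mem_coe, Subgroup.mem_centralizer_singleton_iff]
      exact (Equiv.Perm.disjoint_iff_disjoint_support.mpr h2).commute.symm.eq
  have hcomm : ∀ (u : Subgroup.zpowers a) (v : B),
      Commute ((Subgroup.zpowers a).subtype u) (B.subtype v) := by
    rintro ⟨_, n, rfl⟩ v
    have h := Subgroup.mem_centralizer_singleton_iff.mp (hBc v.2)
    exact Commute.zpow_left (show Commute a (v : Equiv.Perm α) from h.symm) n
  let φ := MonoidHom.noncommCoprod _ _ hcomm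
  have hle : Subgroup.closure ({a, b, c} : Set (Equiv.Perm α)) ≤ φ.range := by
    rw [Subgroup.closure_le]
    rintro f (rfl | hf)
    · exact ⟨(⟨f, Subgroup.mem_zpowers f⟩, 1), by simp [φ]⟩
    · exact ⟨(1, ⟨f, Subgroup.subset_closure hf⟩), by simp [φ]⟩
  haveI : Group.IsSolvable φ.range :=
    Group.isSolvable_of_surjective φ.rangeRestrict_surjective
  exact Group.isSolvable_of_isSolvable_injective (f := Subgroup.inclusion hle)
    (Subgroup.inclusion_injective hle)

theorem isSolvable_closure_three_swaps (a b c : Equiv.Perm α) (ha : a.IsSwap) (hb : b.IsSwap)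
    (hc : c.IsSwap) : Group.IsSolvable (Subgroup.closure ({a, b, c} : Set (Equiv.Perm α))) := by
  have ca := Equiv.Perm.card_support_eq_two.mpr ha
  have cb := Equiv.Perm.card_support_eq_two.mpr hb
  have cc := Equiv.Perm.card_support_eq_two.mpr hc
  by_cases hab : Disjoint a.support b.support
  · by_cases hac : Disjoint a.support c.support
    · exact isSolvable_closure_of_disjoint a b c ha hb hc hab hac
    by_cases hbc : Disjoint b.support c.support
    · have : ({a, b, c} : Set (Equiv.Perm α)) = {b, a, c} := Set.insert_comm a b _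
      rw [this]
      exact isSolvable_closure_of_disjoint b a c hb ha hc hab.symm hbc
    refine isSolvable_of_support_le_four (a.support ∪ b.support ∪ c.support) ?_ _ ?_
    · obtain ⟨u, hu, hu'⟩ := Finset.not_disjoint_iff.mp hac
      obtain ⟨v, hv, hv'⟩ := Finset.not_disjoint_iff.mp hbc
      have huv : u ≠ v := fun h => Finset.disjoint_left.mp hab hu (h ▸ hv)
      have hcs : c.support ⊆ a.support ∪ b.support := by
        have : ({u, v} : Finset α) = c.support := Finset.eq_of_subset_of_card_le
          (by simp [Finset.insert_subset_iff, hu', hv']) (by rw [cc, Finset.card_pair huv])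
        rw [← this]
        simp [Finset.insert_subset_iff, hu, hv]
      rw [Finset.union_eq_left.mpr hcs]
      exact (Finset.card_union_le _ _).trans (by omega)
    · rintro f (rfl | rfl | rfl)
      · exact Finset.subset_union_left.trans Finset.subset_union_left
      · exact Finset.subset_union_right.trans Finset.subset_union_left
      · exact Finset.subset_union_right
  · by_cases hc2 : Disjoint c.support a.support ∧ Disjoint c.support b.support
    · have : ({a, b, c} : Set (Equiv.Perm α)) = {c, a, b} := by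
        ext f; simp only [Set.mem_insert_iff, Set.mem_singleton_iff]; tauto
      rw [this]
      exact isSolvable_closure_of_disjoint c a b hc ha hb hc2.1 hc2.2
    refine isSolvable_of_support_le_four (a.support ∪ b.support ∪ c.support) ?_ _ ?_
    · have h1 : (a.support ∪ b.support).card ≤ 3 := by
        have := Finset.card_union_add_card_inter a.support b.support
        have : 1 ≤ (a.support ∩ b.support).card := by
          rw [Nat.one_le_iff_ne_zero, Finset.card_ne_zero]
          exact Finset.not_disjoint_iff_nonempty_inter.mp hab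
        omega
      have h2 : 1 ≤ ((a.support ∪ b.support) ∩ c.support).card := by
        rw [Nat.one_le_iff_ne_zero, Finset.card_ne_zero]
        apply Finset.not_disjoint_iff_nonempty_inter.mp
        rw [Finset.disjoint_union_left]
        exact fun h => hc2 ⟨h.1.symm, h.2.symm⟩
      have := Finset.card_union_add_card_inter (a.support ∪ b.support) c.support
      omega
    · rintro f (rfl | rfl | rfl)
      · exact Finset.subset_union_left.trans Finset.subset_union_left
      · exact Finset.subset_union_right.trans Finset.subset_union_left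
      · exact Finset.subset_union_right

end transpositions

/-! ### Elements of order three in a sharply triply transitive group -/

section sharp

variable {α : Type*} [Fintype α] [DecidableEq α]

theorem injective_three {x y z : α} (hxy : x ≠ y) (hyz : y ≠ z) (hxz : x ≠ z) :
    Function.Injective ![x, y, z] := by
  intro i j hij
  fin_cases i <;> fin_cases j <;> first
    | rfl
    | exact absurd hij hxy
    | exact absurd hij hxy.symm
    | exact absurd hij hyz
    | exact absurd hij hyz.symm
    | exact absurd hij hxz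
    | exact absurd hij hxz.symm

theorem sharply_three_unique_order_three (h6 : 6 ≤ Fintype.card α) (G : Subgroup (Equiv.Perm α))
    (h3 : IsMultiplyPretransitive G α 3) (hsharp : ∀ x : Fin 3 ↪ α, stabilizer G x = ⊥)
    {a b : α} (hab : a ≠ b) (A B : Subgroup G)
    (hA : A ≤ stabilizer G a ⊓ stabilizer G b) (hB : B ≤ stabilizer G a ⊓ stabilizer G b)
    (hA3 : Nat.card A = 3) (hB3 : Nat.card B = 3) : A = B := by
  classical
  set n := Fintype.card α
  haveI := h3
  haveI h2 : IsMultiplyPretransitive G α 2 :=
    MulAction.isMultiplyPretransitive_of_le (n := 3) (by norm_num)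
      (by rw [Nat.card_eq_fintype_card]; omega)
  have eqone : ∀ (g : G) (x y z : α), x ≠ y → y ≠ z → x ≠ z →
      g • x = x → g • y = y → g • z = z → g = 1 := by
    intro g x y z hxy hyz hxz h1 h2 h3
    have : g ∈ stabilizer G (⟨![x, y, z], injective_three hxy hyz hxz⟩ : Fin 3 ↪ α) := by
      rw [mem_stabilizer_iff]
      ext i
      fin_cases i
      · exact h1
      · exact h2
      · exact h3
    rwa [hsharp, Subgroup.mem_bot] at this
  set T := {g : G | orderOf g = 3}
  have gen : ∀ C : Subgroup G, Nat.card C = 3 → C ≤ stabilizer G a ⊓ stabilizer G b →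
      ∃ g, orderOf g = 3 ∧ g ∈ C ∧ g • a = a ∧ g • b = b := by
    intro C hC hle
    haveI := Fact.mk Nat.prime_three
    obtain ⟨g, hg⟩ := exists_prime_orderOf_dvd_card' (G := C) 3 (by rw [hC])
    exact ⟨g, (Subgroup.orderOf_coe g).trans hg, g.2, (hle g.2).1, (hle g.2).2⟩
  obtain ⟨ga, hga, hgaA, haa, hab'⟩ := gen A hA3 hA
  obtain ⟨gb, hgb, hgbB, hba, hbb⟩ := gen B hB3 hB
  -- an element of order three fixes at most two points
  have hnf : ∀ g : G, orderOf g = 3 →
      (Finset.univ.filter fun x : α => g • x = x).card ≤ 2 := by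
    intro g hg
    by_contra hc
    obtain ⟨x, hx, y, hy, z, hz, hxy, hxz, hyz⟩ := Finset.two_lt_card.mp (Nat.lt_of_not_le hc)
    simp only [Finset.mem_filter, Finset.mem_univ, true_and] at hx hy hz
    rw [eqone g x y z hxy hyz hxz hx hy hz, orderOf_one] at hg
    omega
  have hfin : ∀ g : G, g ^ 3 = 1 → (Finset.univ.filter fun x : α => g • x = x).card % 3 = n % 3 := by
    intro g hg
    have hp : IsPGroup 3 (Subgroup.zpowers g) := by
      rintro ⟨_, k, rfl⟩
      refine ⟨1, Subtype.ext ?_⟩
      show (g ^ k) ^ (3 ^ 1) = 1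
      rw [pow_one, ← zpow_natCast, ← zpow_mul, mul_comm, zpow_mul, zpow_natCast, hg, one_zpow]
    haveI := Fact.mk Nat.prime_three
    have h := hp.card_modEq_card_fixedPoints α
    have he : Nat.card (fixedPoints (Subgroup.zpowers g) α) =
        (Finset.univ.filter fun x : α => g • x = x).card := by
      rw [← Nat.card_eq_finsetCard]
      refine Nat.card_congr (Equiv.subtypeEquivRight fun x => ?_)
      simp only [Finset.mem_filter, Finset.mem_univ, true_and, mem_fixedPoints]
      refine ⟨fun h => h ⟨g, Subgroup.mem_zpowers g⟩, fun h u => ?_⟩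
      obtain ⟨k, hk⟩ := u.2
      have hx : g ∈ stabilizer G x := h
      have := (stabilizer G x).zpow_mem hx k
      show (u : G) • x = x
      rw [← hk]; exact this
    rw [he, Nat.card_eq_fintype_card] at h
    exact h.symm
  have hn2 : n % 3 = 2 := by
    have h1 := hfin ga (by rw [← hga]; exact pow_orderOf_eq_one ga)
    have h2 := hnf ga hga
    have h3 : 2 ≤ (Finset.univ.filter fun x : α => ga • x = x).card := by
      calc 2 = ({a, b} : Finset α).card := (Finset.card_pair hab).symm
        _ ≤ _ := Finset.card_le_card (by simp [Finset.insert_subset_iff, haa, hab'])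
    omega
  have hfix2 : ∀ g : G, orderOf g = 3 →
      (Finset.univ.filter fun x : α => g • x = x).card = 2 := by
    intro g hg
    have := hfin g (by rw [← hg]; exact pow_orderOf_eq_one g)
    have := hnf g hg
    omega
  set TT : Finset G := Finset.univ.filter fun g => orderOf g = 3
  -- count the three-cycles
  have hexists : ∀ x y z : α, x ≠ y → y ≠ z → x ≠ z →
      ∃ g : G, g • x = y ∧ g • y = z ∧ orderOf g = 3 := by
    intro x y z hxy hyz hxz
    obtain ⟨g, hg⟩ := exists_smul_eq G
      (⟨![x, y, z], injective_three hxy hyz hxz⟩ : Fin 3 ↪ α)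
      ⟨![y, z, x], injective_three hyz hxz.symm hxy.symm⟩
    have e0 : g • x = y := congrArg (fun f : Fin 3 ↪ α => f 0) hg
    have e1 : g • y = z := congrArg (fun f : Fin 3 ↪ α => f 1) hg
    have e2 : g • z = x := congrArg (fun f : Fin 3 ↪ α => f 2) hg
    haveI := Fact.mk Nat.prime_three
    refine ⟨g, e0, e1, orderOf_eq_prime ?_ fun h => hxy (by rw [h, one_smul] at e0; exact e0)⟩
    refine eqone _ x y z hxy hyz hxz ?_ ?_ ?_ <;>
      simp only [pow_succ, pow_zero, one_mul, mul_smul, e0, e1, e2]
  have hdist : ∀ g : G, orderOf g = 3 → ∀ x : α, g • x ≠ x →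
      g • g • x ≠ x ∧ g • g • x ≠ g • x := by
    intro g hg x hx
    refine ⟨fun h => hx ?_, fun h => hx (smul_left_cancel g h)⟩
    have h3 : g ^ 3 = 1 := by rw [← hg]; exact pow_orderOf_eq_one g
    have : g • g • g • x = x := by
      rw [← mul_smul, ← mul_smul, show g * g * g = g ^ 3 by simp [pow_succ]]
      rw [h3, one_smul]
    rwa [h] at this
  have hcount : TT.card * (n - 2) = n * (n - 1) * (n - 2) := by
    have e1 : (Finset.univ.filter fun q : G × α => orderOf q.1 = 3 ∧ q.1 • q.2 ≠ q.2).card =
        TT.card * (n - 2) := by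
      rw [Finset.card_eq_sum_card_fiberwise (f := Prod.fst) (t := TT)
        (fun q hq => by simp [TT, (Finset.mem_filter.mp hq).2.1]),
        Finset.sum_const_nat]
      intro g hg
      have hg3 : orderOf g = 3 := (Finset.mem_filter.mp hg).2
      have : (Finset.univ.filter fun x : α => ¬ g • x = x).card = n - 2 := by
        have := Finset.card_filter_add_card_filter_not (s := (Finset.univ : Finset α))
          (fun x => g • x = x)
        rw [hfix2 g hg3, Finset.card_univ] at this
        omega
      rw [← this]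
      refine Finset.card_nbij' Prod.snd (fun x => (g, x)) ?_ ?_ ?_ ?_
      · intro q hq
        simp only [Finset.coe_filter, Set.mem_setOf_eq, Finset.mem_filter, Finset.mem_univ,
          true_and] at hq ⊢
        obtain ⟨⟨-, h⟩, rfl⟩ := hq
        exact h
      · intro x hx
        simp_all
      · intro q hq
        simp only [Finset.coe_filter, Set.mem_setOf_eq, Finset.mem_filter, Finset.mem_univ,
          true_and] at hq
        obtain ⟨-, rfl⟩ := hq
        rfl
      · intro x hx
        rfl
    have e2 : (Finset.univ.filter fun q : G × α => orderOf q.1 = 3 ∧ q.1 • q.2 ≠ q.2).card =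
        Fintype.card (Fin 3 ↪ α) := by
      rw [← Finset.card_univ]
      refine Finset.card_bij (fun q hq => (⟨![q.2, q.1 • q.2, q.1 • q.1 • q.2],
        injective_three (Finset.mem_filter.mp hq).2.2.symm
          (hdist q.1 (Finset.mem_filter.mp hq).2.1 q.2 (Finset.mem_filter.mp hq).2.2).2.symm
          (hdist q.1 (Finset.mem_filter.mp hq).2.1 q.2 (Finset.mem_filter.mp hq).2.2).1.symm⟩ :
          Fin 3 ↪ α))
        (fun q hq => Finset.mem_univ _) ?_ ?_
      · intro q hq q' hq' h
        have a0 : q.2 = q'.2 := congrArg (fun f : Fin 3 ↪ α => f 0) h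
        have a1 : q.1 • q.2 = q'.1 • q'.2 := congrArg (fun f : Fin 3 ↪ α => f 1) h
        have a2 : q.1 • q.1 • q.2 = q'.1 • q'.1 • q'.2 := congrArg (fun f : Fin 3 ↪ α => f 2) h
        have hd := hdist q.1 (Finset.mem_filter.mp hq).2.1 q.2 (Finset.mem_filter.mp hq).2.2
        have hg3 : q.1 ^ 3 = 1 := by
          rw [← (Finset.mem_filter.mp hq).2.1]; exact pow_orderOf_eq_one _
        have hg3' : q'.1 ^ 3 = 1 := by
          rw [← (Finset.mem_filter.mp hq').2.1]; exact pow_orderOf_eq_one _
        refine Prod.ext (inv_mul_eq_one.mp (eqone _ q.2 (q.1 • q.2) (q.1 • q.1 • q.2)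
          (Ne.symm (Finset.mem_filter.mp hq).2.2) hd.2.symm hd.1.symm ?_ ?_ ?_)) a0
        · rw [mul_smul, inv_smul_eq_iff, a1, ← a0]
        · rw [mul_smul, inv_smul_eq_iff, a2, a1]
        · have w : ∀ g : G, g ^ 3 = 1 → ∀ x : α, g • g • g • x = x := fun g hg x => by
            rw [← mul_smul, ← mul_smul, show g * g * g = g ^ 3 by simp [pow_succ],
              hg, one_smul]
          have h1 := w q.1 hg3 q.2
          have h2 := w q'.1 hg3' q'.2
          rw [mul_smul, inv_smul_eq_iff, a2, h2, ← a2, h1, a0]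
      · intro e _
        obtain ⟨g, g0, g1, g3⟩ := hexists (e 0) (e 1) (e 2) (by simp) (by simp) (by simp)
        refine ⟨(g, e 0), Finset.mem_filter.mpr ⟨Finset.mem_univ _, g3, by simp [g0]⟩, ?_⟩
        ext i
        fin_cases i
        · rfl
        · exact g0
        · show g • g • e 0 = e 2
          rw [g0, g1]
    rw [← e1, e2, Fintype.card_embedding_eq, Fintype.card_fin]
    simp only [Nat.descFactorial_succ, Nat.descFactorial_zero, n, Nat.sub_zero]
    ring
  have hT : TT.card = n * (n - 1) := Nat.eq_of_mul_eq_mul_right (by omega) hcount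
  -- pairs of fixed points
  set P := fun (u : α) (v : α) => TT.filter fun g => g • u = u ∧ g • v = v
  have hconst : ∀ u v : α, u ≠ v → (P u v).card = (P a b).card := by
    intro u v huv
    obtain ⟨k, hk⟩ := (MulAction.is_two_pretransitive_iff.mp h2) hab huv
    have hr : ∀ (g : G) (x : α), (k * g * k⁻¹) • k • x = k • x ↔ g • x = x := fun g x => by
      rw [mul_smul, mul_smul, inv_smul_smul, smul_left_cancel_iff]
    have ho : ∀ g : G, orderOf (k * g * k⁻¹) = orderOf g := fun g =>
      orderOf_injective (MulAut.conj k).toMonoidHom (MulAut.conj k).injective g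
    refine (Finset.card_nbij' (fun g => k * g * k⁻¹) (fun g => k⁻¹ * g * k) ?_ ?_ ?_ ?_).symm
    · intro g hg
      simp only [Finset.mem_coe, P, TT, Finset.mem_filter, Finset.mem_univ, true_and] at hg ⊢
      rw [← hk.1, ← hk.2, hr, hr, ho]
      exact hg
    · intro g hg
      simp only [Finset.mem_coe, P, TT, Finset.mem_filter, Finset.mem_univ, true_and] at hg ⊢
      rw [← hk.1, ← hk.2] at hg
      have e : g = k * (k⁻¹ * g * k) * k⁻¹ := by group
      rw [e, hr, hr, ho] at hg
      exact hg
    · intro g _; group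
    · intro g _; group
  have hsum : TT.card * 2 = n * (n - 1) * (P a b).card := by
    have e3 : ∑ q ∈ (Finset.univ : Finset α).offDiag, (P q.1 q.2).card =
        ∑ g ∈ TT, 2 := by
      simp only [P, Finset.card_filter]
      rw [Finset.sum_comm]
      refine Finset.sum_congr rfl fun g hg => ?_
      rw [← Finset.card_filter]
      have : ((Finset.univ : Finset α).offDiag.filter fun q => g • q.1 = q.1 ∧ g • q.2 = q.2) =
          (Finset.univ.filter fun x : α => g • x = x).offDiag := by
        ext q
        simp only [Finset.mem_filter, Finset.mem_offDiag, Finset.mem_univ, true_and]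
        tauto
      rw [this, Finset.offDiag_card, hfix2 g (Finset.mem_filter.mp hg).2]
    rw [Finset.sum_const, smul_eq_mul,
      Finset.sum_congr rfl fun q hq => hconst q.1 q.2 (Finset.mem_offDiag.mp hq).2.2,
      Finset.sum_const, smul_eq_mul, Finset.offDiag_card, Finset.card_univ] at e3
    have h1 : n * n - n = n * (n - 1) := by rw [Nat.mul_sub, mul_one]
    rw [h1] at e3
    exact e3.symm
  have hP : (P a b).card = 2 := by
    rw [hT] at hsum
    exact (Nat.eq_of_mul_eq_mul_left (Nat.mul_pos (by omega) (by omega)) hsum).symm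
  -- both subgroups consist of these two elements and the identity
  have key : ∀ (C : Subgroup G) (g : G), Nat.card C = 3 → orderOf g = 3 → g ∈ C →
      g • a = a → g • b = b → ∀ x, x ∈ C ↔ x = 1 ∨ x ∈ P a b := by
    intro C g hC hg hgC hga hgb x
    have hg2 : g ≠ g⁻¹ := by
      intro h
      have : g ^ 2 = 1 := by rw [pow_two]; nth_rewrite 2 [h]; exact mul_inv_cancel g
      have := orderOf_dvd_of_pow_eq_one this
      rw [hg] at this
      norm_num at this
    have hmem : ∀ y : G, y ∈ P a b ↔ orderOf y = 3 ∧ y • a = a ∧ y • b = b := fun y => by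
      simp [P, TT]
    have hPe : P a b = {g, g⁻¹} := by
      symm
      apply Finset.eq_of_subset_of_card_le
      · simp only [Finset.insert_subset_iff, Finset.singleton_subset_iff, hmem, orderOf_inv]
        exact ⟨⟨hg, hga, hgb⟩, hg, inv_smul_eq_iff.mpr hga.symm, inv_smul_eq_iff.mpr hgb.symm⟩
      · rw [hP, Finset.card_pair hg2]
    have hCz : C = Subgroup.zpowers g := (Subgroup.eq_of_le_of_card_ge
      (Subgroup.zpowers_le.mpr hgC) (by rw [hC, Nat.card_zpowers, hg])).symm
    rw [hPe, hCz, Finset.mem_insert, Finset.mem_singleton]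
    constructor
    · intro hx
      have hgfin : IsOfFinOrder g := isOfFinOrder_of_finite g
      obtain ⟨k, hk, rfl⟩ : ∃ k < 3, g ^ k = x := by
        have h := (hgfin.mem_zpowers_iff_mem_range_orderOf).mp hx
        rw [hg] at h
        simpa using h
      interval_cases k
      · left; exact pow_zero g
      · right; left; exact pow_one g
      · right; right
        rw [eq_inv_iff_mul_eq_one, ← pow_succ]
        show g ^ 3 = 1
        rw [← hg, pow_orderOf_eq_one]
    · rintro (rfl | rfl | rfl)
      · exact one_mem _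
      · exact Subgroup.mem_zpowers _
      · exact inv_mem (Subgroup.mem_zpowers _)
  ext x
  rw [key A ga hA3 hga hgaA haa hab' x, key B gb hB3 hgb hgbB hba hbb x]

end sharp

end CfsgLib.Perm57
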