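import Mathlib
import Cfsg.Agent.PermGroups.NormalSubgroup

/-!
Wagner's theorem on normal subgroups of triply transitive groups of odd degree.
-/

set_option autoImplicit false
set_option linter.style.haveILetI false

namespace CfsgLib.Perm57

open MulAction

variable {G Ω : Type*} [Group G] [MulAction G Ω]

theorem wagner_odd_degree [Finite G] [Fintype Ω] [FaithfulSMul G Ω]
    (hodd : Odd (Fintype.card Ω)) (h5 : 5 ≤ Fintype.card Ω)
    (hG : IsMultiplyPretransitive G Ω 3) (N : Subgroup G) [hN : N.Normal] (hN1 : N ≠ ⊥) :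
    IsMultiplyPretransitive N Ω 3 := by
  classical
  have hn : Nat.card Ω = Fintype.card Ω := Nat.card_eq_fintype_card
  have h2 : IsMultiplyPretransitive N Ω 2 := by
    rcases CfsgLib.PermGroups.normal_multiplyPretransitive 3 (X := Ω) (by norm_num)
      (by omega) hG N hN1 with h | ⟨-, htr, hreg, -, hexp⟩
    · exact h
    · exfalso
      obtain ⟨a⟩ : Nonempty Ω := Fintype.card_pos_iff.mp (by omega)
      haveI := htr
      have hcard : Nat.card N = Nat.card Ω := by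
        have h := (stabilizer N a).card_mul_index
        rw [index_stabilizer_of_transitive, hreg a, Subgroup.card_bot, one_mul] at h
        exact h.symm
      haveI := Fact.mk Nat.prime_two
      have hp : IsPGroup 2 N := fun x => ⟨1, by
        rw [pow_one]; exact Subtype.ext (hexp x x.2)⟩
      obtain ⟨k, hk⟩ := IsPGroup.iff_card.mp hp
      rw [hcard, hn] at hk
      rcases k with _ | k
      · rw [pow_zero] at hk; omega
      · rw [Nat.odd_iff, hk, pow_succ] at hodd; omega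
  have trans3 : ∀ x y z x' y' z' : Ω, x ≠ y → x ≠ z → y ≠ z → x' ≠ y' → x' ≠ z' → y' ≠ z' →
      ∃ g : G, g • x = x' ∧ g • y = y' ∧ g • z = z' := by
    intro x y z x' y' z' h1 h2 h3 h4 h5 h6
    have inj : ∀ {u v w : Ω}, u ≠ v → u ≠ w → v ≠ w → Function.Injective ![u, v, w] := by
      intro u v w h1 h2 h3 i j hij
      fin_cases i <;> fin_cases j <;> first
        | rfl
        | exact absurd hij h1
        | exact absurd hij h1.symm
        | exact absurd hij h2
        | exact absurd hij h2.symm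
        | exact absurd hij h3
        | exact absurd hij h3.symm
    obtain ⟨g, hg⟩ := exists_smul_eq G (⟨![x, y, z], inj h1 h2 h3⟩ : Fin 3 ↪ Ω)
      ⟨![x', y', z'], inj h4 h5 h6⟩
    exact ⟨g, congrArg (fun f : Fin 3 ↪ Ω => f 0) hg, congrArg (fun f : Fin 3 ↪ Ω => f 1) hg,
      congrArg (fun f : Fin 3 ↪ Ω => f 2) hg⟩
  obtain ⟨a, b, -, hab, -⟩ := Fintype.two_lt_card_iff.mp (show 2 < Fintype.card Ω by omega)
  set E : Subgroup G := N ⊓ (stabilizer G a ⊓ stabilizer G b) with hE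
  -- conjugation by elements fixing `{a, b}`
  have hconj : ∀ g : G, (g • a = a ∧ g • b = b) ∨ (g • a = b ∧ g • b = a) →
      ∀ e ∈ E, g * e * g⁻¹ ∈ E := by
    rintro g hg e ⟨heN, hea, heb⟩
    refine ⟨hN.conj_mem e heN g, ?_, ?_⟩
    · show (g * e * g⁻¹) • a = a
      rcases hg with ⟨h1, h2⟩ | ⟨h1, h2⟩
      · rw [mul_smul, mul_smul, inv_smul_eq_iff.mpr h1.symm, mem_stabilizer_iff.mp hea, h1]
      · rw [mul_smul, mul_smul, inv_smul_eq_iff.mpr h2.symm, mem_stabilizer_iff.mp heb, h2]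
    · show (g * e * g⁻¹) • b = b
      rcases hg with ⟨h1, h2⟩ | ⟨h1, h2⟩
      · rw [mul_smul, mul_smul, inv_smul_eq_iff.mpr h2.symm, mem_stabilizer_iff.mp heb, h2]
      · rw [mul_smul, mul_smul, inv_smul_eq_iff.mpr h1.symm, mem_stabilizer_iff.mp hea, h1]
  have himage : ∀ g : G, (g • a = a ∧ g • b = b) ∨ (g • a = b ∧ g • b = a) →
      ∀ c : Ω, (fun x => g • x) '' orbit E c = orbit E (g • c) := by
    intro g hg c
    have hg' : (g⁻¹ • a = a ∧ g⁻¹ • b = b) ∨ (g⁻¹ • a = b ∧ g⁻¹ • b = a) := by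
      rcases hg with ⟨h1, h2⟩ | ⟨h1, h2⟩
      · exact Or.inl ⟨inv_smul_eq_iff.mpr h1.symm, inv_smul_eq_iff.mpr h2.symm⟩
      · exact Or.inr ⟨inv_smul_eq_iff.mpr h2.symm, inv_smul_eq_iff.mpr h1.symm⟩
    ext x
    constructor
    · rintro ⟨_, ⟨e, rfl⟩, rfl⟩
      refine ⟨⟨g * e * g⁻¹, hconj g hg e e.2⟩, ?_⟩
      show (g * (e : G) * g⁻¹) • g • c = g • (e : G) • c
      rw [mul_smul, mul_smul, inv_smul_smul]
    · rintro ⟨e, rfl⟩
      refine ⟨g⁻¹ • (e : G) • g • c, ⟨⟨g⁻¹ * e * g⁻¹⁻¹, hconj g⁻¹ hg' e e.2⟩, ?_⟩, ?_⟩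
      · show (g⁻¹ * (e : G) * g⁻¹⁻¹) • c = _
        rw [inv_inv, mul_smul, mul_smul]
      · exact smul_inv_smul g _
  set U : Finset Ω := Finset.univ \ {a, b} with hU
  have hUmem : ∀ c, c ∈ U ↔ c ≠ a ∧ c ≠ b := fun c => by simp [U]
  have horbU : ∀ c ∈ U, ∀ x ∈ orbit E c, x ∈ U := by
    rintro c hc _ ⟨e, rfl⟩
    rw [hUmem] at hc ⊢
    exact ⟨fun h => hc.1 (smul_left_cancel (e : G) (h.trans e.2.2.1.symm)),
      fun h => hc.2 (smul_left_cancel (e : G) (h.trans e.2.2.2.symm))⟩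
  -- it is enough that `E` is transitive on the other points
  suffices htr : ∀ c ∈ U, ∀ c' ∈ U, c' ∈ orbit E c by
    rw [isMultiplyPretransitive_iff]
    intro x y
    have key : ∀ x : Fin 3 ↪ Ω, ∃ g : N, g • x 0 = a ∧ g • x 1 = b := fun x =>
      is_two_pretransitive_iff.mp h2 (x.injective.ne (by decide)) hab
    obtain ⟨g, hg0, hg1⟩ := key x
    obtain ⟨h, hh0, hh1⟩ := key y
    have hmem : ∀ (g : N) (x : Fin 3 ↪ Ω), g • x 0 = a → g • x 1 = b → g • x 2 ∈ U := by
      intro g x h0 h1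
      rw [hUmem, ← h0, ← h1]
      exact ⟨fun h => x.injective.ne (show (2 : Fin 3) ≠ 0 by decide) (smul_left_cancel g h),
        fun h => x.injective.ne (show (2 : Fin 3) ≠ 1 by decide) (smul_left_cancel g h)⟩
    obtain ⟨e, he⟩ := htr _ (hmem g x hg0 hg1) _ (hmem h y hh0 hh1)
    refine ⟨h⁻¹ * ⟨e, e.2.1⟩ * g, ?_⟩
    ext i : 1
    show (h⁻¹ * ⟨(e : G), e.2.1⟩ * g) • x i = y i
    rw [mul_smul, mul_smul, inv_smul_eq_iff]
    fin_cases i
    · show (⟨(e : G), e.2.1⟩ : N) • g • x 0 = h • y 0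
      rw [hg0, hh0]
      exact e.2.2.1
    · show (⟨(e : G), e.2.1⟩ : N) • g • x 1 = h • y 1
      rw [hg1, hh1]
      exact e.2.2.2
    · exact he
  -- all these orbits have the same odd length
  obtain ⟨c0, hc0⟩ : ∃ c, c ∈ U := Finset.card_pos.mp (by
    rw [hU, Finset.card_univ_sdiff, Finset.card_pair hab]; omega)
  have hsame : ∀ c ∈ U, (orbit E c).ncard = (orbit E c0).ncard := by
    intro c hc
    rw [hUmem] at hc
    have hc0' := (hUmem c0).mp hc0
    obtain ⟨g, h1, h2, h3⟩ := trans3 a b c0 a b c hab hc0'.1.symm hc0'.2.symm hab hc.1.symm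
      hc.2.symm
    rw [← h3, ← himage g (Or.inl ⟨h1, h2⟩) c0, Set.ncard_image_of_injective _
      (MulAction.injective g)]
  set I : Finset (Set Ω) := U.image fun c => orbit E c with hI
  have hcount : U.card = I.card * (orbit E c0).ncard := by
    rw [Finset.card_eq_sum_card_image (fun c => orbit E c) U, ← hI, Finset.sum_const_nat]
    intro O hO
    obtain ⟨c, hc, rfl⟩ := Finset.mem_image.mp hO
    rw [← hsame c hc, Set.ncard_eq_toFinset_card']
    congr 1
    ext x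
    simp only [Finset.mem_filter, Set.mem_toFinset]
    exact ⟨fun h => orbit_eq_iff.mp h.2, fun h => ⟨horbU c hc x h, orbit_eq_iff.mpr h⟩⟩
  have hUodd : Odd U.card := by
    rw [hU, Finset.card_univ_sdiff, Finset.card_pair hab, Nat.odd_iff]
    rw [Nat.odd_iff] at hodd
    omega
  rw [hcount, Nat.odd_mul] at hUodd
  -- a swap in `N` preserves every orbit
  obtain ⟨s, hsa, hsb⟩ := is_two_pretransitive_iff.mp h2 hab hab.symm
  have hsU : ∀ c ∈ U, (s : G) • c ∈ U := by
    intro c hc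
    rw [hUmem] at hc ⊢
    refine ⟨fun h => hc.2 (smul_left_cancel (s : G) (h.trans hsb.symm)),
      fun h => hc.1 (smul_left_cancel (s : G) (h.trans hsa.symm))⟩
  let φ : I → I := fun O => ⟨(fun x => (s : G) • x) '' O.1, by
    obtain ⟨c, hc, hO⟩ := Finset.mem_image.mp O.2
    rw [← hO, himage (s : G) (Or.inr ⟨hsa, hsb⟩) c]
    exact Finset.mem_image.mpr ⟨(s : G) • c, hsU c hc, rfl⟩⟩
  have hφ : ∀ O, φ (φ O) = O := by
    intro O
    apply Subtype.ext
    show (fun x => (s : G) • x) '' ((fun x => (s : G) • x) '' O.1) = O.1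
    obtain ⟨c, hc, hO⟩ := Finset.mem_image.mp O.2
    rw [← hO, himage (s : G) (Or.inr ⟨hsa, hsb⟩) c, himage (s : G) (Or.inr ⟨hsa, hsb⟩)]
    apply orbit_eq_iff.mpr
    have hss : (s : G) * s ∈ E := ⟨N.mul_mem s.2 s.2, by
      show ((s : G) * s) • a = a
      rw [mul_smul, show (s : G) • a = b from hsa]; exact hsb, by
      show ((s : G) * s) • b = b
      rw [mul_smul, show (s : G) • b = a from hsb]; exact hsa⟩
    exact ⟨⟨_, hss⟩, mul_smul _ _ _⟩
  obtain ⟨O, hOfix⟩ : ∃ O : I, φ O = O := by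
    haveI := Fact.mk Nat.prime_two
    let ψ : Equiv.Perm I := (show Function.Involutive φ from hφ).toPerm
    have hnd : ¬ 2 ∣ Fintype.card I := by
      rw [Fintype.card_coe]
      intro h
      have := Nat.odd_iff.mp hUodd.1
      omega
    have hψ : ψ ^ 2 ^ 1 = 1 := by
      ext O : 1
      rw [pow_one, pow_two]
      exact hφ O
    obtain ⟨O, hO⟩ := Equiv.Perm.exists_fixed_point_of_prime (p := 2) (n := 1) (σ := ψ) hnd hψ
    exact ⟨O, hO⟩
  obtain ⟨c1, hc1, hO1⟩ := Finset.mem_image.mp O.2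
  have hs1 : (s : G) • c1 ∈ orbit E c1 := by
    have h : (fun x => (s : G) • x) '' O.1 = O.1 := congrArg Subtype.val hOfix
    rw [← hO1] at h
    rw [← h]
    exact ⟨c1, mem_orbit_self c1, rfl⟩
  have hsall : ∀ c ∈ U, (s : G) • c ∈ orbit E c := by
    intro c hc
    have hc1' := (hUmem c1).mp hc1
    have hc' := (hUmem c).mp hc
    obtain ⟨g, h1, h2, h3⟩ := trans3 a b c1 a b c hab hc1'.1.symm hc1'.2.symm hab hc'.1.symm
      hc'.2.symm
    have he : (g * s * g⁻¹) * (s : G)⁻¹ ∈ E := ⟨N.mul_mem (hN.conj_mem _ s.2 g) (N.inv_mem s.2), by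
      show (g * s * g⁻¹ * (s : G)⁻¹) • a = a
      rw [mul_smul, mul_smul, mul_smul, inv_smul_eq_iff.mpr (show a = (s : G) • b from hsb.symm),
        inv_smul_eq_iff.mpr h2.symm, show (s : G) • b = a from hsb, h1], by
      show (g * s * g⁻¹ * (s : G)⁻¹) • b = b
      rw [mul_smul, mul_smul, mul_smul, inv_smul_eq_iff.mpr (show b = (s : G) • a from hsa.symm),
        inv_smul_eq_iff.mpr h1.symm, show (s : G) • a = b from hsa, h2]⟩
    have h4 : g • (s : G) • c1 ∈ orbit E c := by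
      rw [← h3, ← himage g (Or.inl ⟨h1, h2⟩) c1]
      exact ⟨_, hs1, rfl⟩
    have h5 : (g * s * g⁻¹ * (s : G)⁻¹) • ((s : G) • c) = g • (s : G) • c1 := by
      rw [mul_smul, inv_smul_smul, mul_smul, mul_smul, inv_smul_eq_iff.mpr h3.symm]
    rw [← orbit_eq_iff.mpr h4]
    refine ⟨(⟨_, he⟩ : E)⁻¹, ?_⟩
    show ((⟨_, he⟩ : E)⁻¹ : G) • g • (s : G) • c1 = (s : G) • c
    rw [← h5]
    exact inv_smul_smul _ _
  -- Sylow 2-subgroups of the setwise stabiliser fix a point in every orbit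
  let E2 : Subgroup G :=
    { carrier := {x | x ∈ N ∧ ((x • a = a ∧ x • b = b) ∨ (x • a = b ∧ x • b = a))}
      one_mem' := ⟨N.one_mem, Or.inl ⟨one_smul _ a, one_smul _ b⟩⟩
      mul_mem' := fun {x y} hx hy => by
        refine ⟨N.mul_mem hx.1 hy.1, ?_⟩
        rcases hx.2 with ⟨h1, h2⟩ | ⟨h1, h2⟩ <;> rcases hy.2 with ⟨h3, h4⟩ | ⟨h3, h4⟩ <;>
          simp [mul_smul, h1, h2, h3, h4]
      inv_mem' := fun {x} hx => by
        refine ⟨N.inv_mem hx.1, ?_⟩
        rcases hx.2 with ⟨h1, h2⟩ | ⟨h1, h2⟩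
        · exact Or.inl ⟨inv_smul_eq_iff.mpr h1.symm, inv_smul_eq_iff.mpr h2.symm⟩
        · exact Or.inr ⟨inv_smul_eq_iff.mpr h2.symm, inv_smul_eq_iff.mpr h1.symm⟩ }
  have hEE2 : E ≤ E2 := fun x hx => ⟨hx.1, Or.inl ⟨hx.2.1, hx.2.2⟩⟩
  have hE2card : Nat.card E2 = 2 * Nat.card E := by
    have hidx : (E.subgroupOf E2).index = 2 := by
      rw [Subgroup.index_eq_two_iff]
      refine ⟨⟨s, s.2, Or.inr ⟨hsa, hsb⟩⟩, fun x => ?_⟩
      rcases x.2.2 with ⟨h1, h2⟩ | ⟨h1, h2⟩
      · refine Or.inr ⟨⟨x.2.1, h1, h2⟩, fun h => ?_⟩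
        have h' : ((x : G) * (s : G)) • a = a := h.2.1
        rw [mul_smul, show (s : G) • a = b from hsa, h2] at h'
        exact hab h'.symm
      · refine Or.inl ⟨⟨N.mul_mem x.2.1 s.2, ?_, ?_⟩, fun h => ?_⟩
        · show ((x : G) * (s : G)) • a = a
          rw [mul_smul, show (s : G) • a = b from hsa, h2]
        · show ((x : G) * (s : G)) • b = b
          rw [mul_smul, show (s : G) • b = a from hsb, h1]
        · have h' : (x : G) • a = a := h.2.1
          rw [h1] at h'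
          exact hab h'.symm
    rw [← (E.subgroupOf E2).card_mul_index, hidx,
      Nat.card_congr (Subgroup.subgroupOfEquivOfLe hEE2).toEquiv, mul_comm]
  haveI := Fact.mk Nat.prime_two
  obtain ⟨T⟩ : Nonempty (Sylow 2 E2) := inferInstance
  set T' : Subgroup G := (T : Subgroup E2).map E2.subtype with hT'
  have hT'p : IsPGroup 2 T' := T.isPGroup'.map _
  have hT'le : T' ≤ E2 := Subgroup.map_subtype_le _
  have hfixT : ∀ c ∈ U, ∃ d ∈ orbit E c, ∀ x ∈ T', x • d = d := by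
    intro c hc
    have hinv : ∀ x ∈ T', ∀ d ∈ orbit E c, x • d ∈ orbit E c := by
      intro x hx d hd
      obtain ⟨hxN, hx2⟩ := hT'le hx
      rw [← orbit_eq_iff.mpr hd]
      rcases hx2 with ⟨h1, h2⟩ | ⟨h1, h2⟩
      · exact ⟨⟨x, hxN, h1, h2⟩, rfl⟩
      · have he : x * (s : G)⁻¹ ∈ E := ⟨N.mul_mem hxN (N.inv_mem s.2), by
          show (x * (s : G)⁻¹) • a = a
          rw [mul_smul, inv_smul_eq_iff.mpr (show a = (s : G) • b from hsb.symm), h2], by
          show (x * (s : G)⁻¹) • b = b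
          rw [mul_smul, inv_smul_eq_iff.mpr (show b = (s : G) • a from hsa.symm), h1]⟩
        rw [← orbit_eq_iff.mpr (hsall d (horbU c hc d hd))]
        exact ⟨⟨_, he⟩, by show (x * (s : G)⁻¹) • (s : G) • d = x • d; rw [mul_smul, inv_smul_smul]⟩
    letI : MulAction T' (orbit E c) :=
      { smul := fun x d => ⟨(x : G) • (d : Ω), hinv x x.2 d d.2⟩
        one_smul := fun d => Subtype.ext (one_smul G (d : Ω))
        mul_smul := fun x y d => Subtype.ext (mul_smul (x : G) (y : G) (d : Ω)) }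
    obtain ⟨d, hd⟩ := hT'p.nonempty_fixed_point_of_prime_not_dvd_card (orbit E c) (by
      rw [Nat.card_coe_set_eq, hsame c hc]
      intro h
      have := Nat.odd_iff.mp hUodd.2
      omega)
    exact ⟨d, d.2, fun x hx => congrArg Subtype.val (hd ⟨x, hx⟩)⟩
  intro c hc c' hc'
  by_contra hne
  obtain ⟨d, hd, hTd⟩ := hfixT c hc
  obtain ⟨d', hd', hTd'⟩ := hfixT c' hc'
  have hdd : d ≠ d' := by
    intro h
    subst h
    exact hne ((orbit_eq_iff.mpr hd).symm.trans (orbit_eq_iff.mpr hd') ▸ mem_orbit_self c')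
  obtain ⟨k, hk1, hk2⟩ := is_two_pretransitive_iff.mp h2 hdd hab
  have hle : T'.map (MulAut.conj (k : G)).toMonoidHom ≤ E := by
    rintro _ ⟨x, hx, rfl⟩
    refine ⟨hN.conj_mem x (hT'le hx).1 k, ?_, ?_⟩
    · show ((k : G) * x * (k : G)⁻¹) • a = a
      rw [mul_smul, mul_smul, inv_smul_eq_iff.mpr (show a = (k : G) • d from hk1.symm), hTd x hx]
      exact hk1
    · show ((k : G) * x * (k : G)⁻¹) • b = b
      rw [mul_smul, mul_smul, inv_smul_eq_iff.mpr (show b = (k : G) • d' from hk2.symm), hTd' x hx]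
      exact hk2
  have hdvd := Subgroup.card_dvd_of_le hle
  rw [Subgroup.card_map_of_injective (MulAut.conj (k : G)).injective, hT',
    Subgroup.card_map_of_injective E2.subtype_injective, T.card_eq_multiplicity, hE2card] at hdvd
  have hE0 : Nat.card E ≠ 0 := Nat.card_pos.ne'
  rw [Nat.factorization_mul two_ne_zero hE0, Finsupp.add_apply, Nat.Prime.factorization_self
    Nat.prime_two, Nat.prime_two.pow_dvd_iff_le_factorization hE0] at hdvd
  omega

end CfsgLib.Perm57
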